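import Mathlib

/-!
# Symmetric primitive S-rings over dihedral groups
-/

set_option autoImplicit false

namespace Cfsg.Agent.H28.DihedralSRing

open MonoidAlgebra

open scoped Classical

/-- Data of a symmetric primitive S-ring over the dihedral group of order `2 * m`, given by the
equivalence relation whose classes are the basic sets. -/
structure Scheme (m : ℕ) [NeZero m] where
  rel : DihedralGroup m → DihedralGroup m → Prop
  equiv : Equivalence rel
  one_left : ∀ x, rel 1 x → x = 1
  inv : ∀ x, rel x x⁻¹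
  count : ∀ a b x y, rel x y →
    (Finset.univ.filter fun u => rel a u ∧ rel b (u⁻¹ * x)).card =
      (Finset.univ.filter fun u => rel a u ∧ rel b (u⁻¹ * y)).card
  meet : ∀ x, ∃ i : ZMod m, rel x (DihedralGroup.r i)
  prim : ∀ H : Subgroup (DihedralGroup m), (∀ x y, rel x y → x ∈ H → y ∈ H) → H = ⊥ ∨ H = ⊤

variable {m : ℕ} [NeZero m]

/-- An element of the group algebra with prescribed coefficients. -/
noncomputable def ofFn {R : Type*} [Semiring R] (F : DihedralGroup m → R) :
    MonoidAlgebra R (DihedralGroup m) :=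
  MonoidAlgebra.ofCoeff (Finsupp.equivFunOnFinite.symm F)

@[simp]
theorem coeff_ofFn {R : Type*} [Semiring R] (F : DihedralGroup m → R) (x : DihedralGroup m) :
    (ofFn F).coeff x = F x := by
  simp [ofFn]

theorem sum_dihedral {M : Type*} [AddCommMonoid M] (F : DihedralGroup m → M) :
    ∑ x, F x = ∑ i : ZMod m, F (.r i) + ∑ i : ZMod m, F (.sr i) := by
  rw [← Fintype.sum_equiv DihedralGroup.equivSum.symm (fun z => F (DihedralGroup.equivSum.symm z)) F
    fun _ => rfl, Fintype.sum_sum_type]
  rfl

theorem coeff_mul' {R : Type*} [Semiring R] (f g : MonoidAlgebra R (DihedralGroup m))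
    (x : DihedralGroup m) : (f * g).coeff x = ∑ u, f.coeff u * g.coeff (u⁻¹ * x) := by
  rw [coeff_mul_apply_left, Finsupp.sum_fintype _ _ fun _ => zero_mul _]

/-- The product at a rotation. -/
theorem coeff_mul_r {R : Type*} [Semiring R] (f g : MonoidAlgebra R (DihedralGroup m))
    (a : ZMod m) : (f * g).coeff (.r a) =
      ∑ i, f.coeff (.r i) * g.coeff (.r (a - i)) + ∑ i, f.coeff (.sr i) * g.coeff (.sr (i + a)) := by
  rw [coeff_mul', sum_dihedral]
  simp [neg_add_eq_sub]

/-- The product at a reflection. -/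
theorem coeff_mul_sr {R : Type*} [Semiring R] (f g : MonoidAlgebra R (DihedralGroup m))
    (a : ZMod m) : (f * g).coeff (.sr a) =
      ∑ i, f.coeff (.r i) * g.coeff (.sr (a + i)) + ∑ i, f.coeff (.sr i) * g.coeff (.r (a - i)) := by
  rw [coeff_mul', sum_dihedral]
  simp

namespace Scheme

variable (S : Scheme m)

/-- The setoid of basic sets. -/
def setoid : Setoid (DihedralGroup m) := ⟨S.rel, S.equiv⟩

variable (R : Type*) [CommRing R]

theorem sum_classes (F : Quotient S.setoid → Quotient S.setoid → R) {x y : DihedralGroup m}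
    (h : S.rel x y) :
    ∑ u, F (Quotient.mk _ u) (Quotient.mk _ (u⁻¹ * x)) =
      ∑ u, F (Quotient.mk _ u) (Quotient.mk _ (u⁻¹ * y)) := by
  let q : DihedralGroup m → Quotient S.setoid := Quotient.mk _
  have key : ∀ z : DihedralGroup m, ∑ u, F (q u) (q (u⁻¹ * z)) =
      ∑ w : Quotient S.setoid × Quotient S.setoid,
        ((Finset.univ.filter fun u => (q u, q (u⁻¹ * z)) = w).card : ℕ) • F w.1 w.2 := by
    intro z
    rw [← Finset.sum_fiberwise Finset.univ (fun u => (q u, q (u⁻¹ * z)))]
    refine Finset.sum_congr rfl fun w _ => ?_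
    rw [← Finset.sum_const]
    refine Finset.sum_congr rfl fun u hu => ?_
    rw [← (Finset.mem_filter.1 hu).2]
  rw [key x, key y]
  refine Finset.sum_congr rfl ?_
  rintro ⟨a, b⟩ -
  obtain ⟨a, rfl⟩ := Quotient.exists_rep a
  obtain ⟨b, rfl⟩ := Quotient.exists_rep b
  congr 1
  have e : ∀ z : DihedralGroup m,
      (Finset.univ.filter fun u => (q u, q (u⁻¹ * z)) =
        (Quotient.mk S.setoid a, Quotient.mk S.setoid b)) =
      Finset.univ.filter fun u => S.rel a u ∧ S.rel b (u⁻¹ * z) := by
    intro z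
    ext u
    simp only [q, Finset.mem_filter, Finset.mem_univ, true_and, Prod.mk.injEq]
    exact and_congr ⟨fun h => S.equiv.symm (Quotient.exact h),
        fun h => Quotient.sound (S.equiv.symm h)⟩
      ⟨fun h => S.equiv.symm (Quotient.exact h), fun h => Quotient.sound (S.equiv.symm h)⟩
  rw [e x, e y]
  exact S.count a b x y h

theorem rel_one_iff {x y : DihedralGroup m} (h : S.rel x y) : x = 1 ↔ y = 1 :=
  ⟨fun hx => S.one_left y (hx ▸ h), fun hy => S.one_left x (hy ▸ S.equiv.symm h)⟩

/-- The S-ring with coefficients in `R`. -/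
noncomputable def alg : Subring (MonoidAlgebra R (DihedralGroup m)) where
  carrier := {f | ∀ x y, S.rel x y → f.coeff x = f.coeff y}
  zero_mem' := by simp
  add_mem' {f g} hf hg x y h := by simp [hf x y h, hg x y h]
  neg_mem' {f} hf x y h := by simp [hf x y h]
  one_mem' x y h := by
    rw [MonoidAlgebra.one_def, coeff_single, Finsupp.single_apply, Finsupp.single_apply]
    simp only [eq_comm (a := (1 : DihedralGroup m)), S.rel_one_iff h]
  mul_mem' {f g} hf hg x y h := by
    rw [coeff_mul', coeff_mul']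
    exact S.sum_classes R (fun a b => Quotient.lift (fun z => f.coeff z) (fun _ _ h => hf _ _ h) a *
      Quotient.lift (fun z => g.coeff z) (fun _ _ h => hg _ _ h) b) h

variable {R}

theorem mem_alg {f : MonoidAlgebra R (DihedralGroup m)} :
    f ∈ S.alg R ↔ ∀ x y, S.rel x y → f.coeff x = f.coeff y := Iff.rfl

variable {S}

theorem coeff_inv {f : MonoidAlgebra R (DihedralGroup m)} (hf : f ∈ S.alg R)
    (x : DihedralGroup m) : f.coeff x⁻¹ = f.coeff x :=
  (hf x x⁻¹ (S.inv x)).symm

theorem coeff_r_neg {f : MonoidAlgebra R (DihedralGroup m)} (hf : f ∈ S.alg R) (i : ZMod m) :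
    f.coeff (.r (-i)) = f.coeff (.r i) := coeff_inv hf (.r i)

theorem mul_comm_of_mem {f g : MonoidAlgebra R (DihedralGroup m)} (hf : f ∈ S.alg R)
    (hg : g ∈ S.alg R) : f * g = g * f := by
  ext x
  rw [← coeff_inv ((S.alg R).mul_mem hf hg) x, coeff_mul', coeff_mul']
  refine Fintype.sum_equiv (Equiv.mulLeft x) _ _ fun u => ?_
  rw [mul_comm]
  simp only [Equiv.coe_mulLeft]
  rw [← coeff_inv hg (u⁻¹ * x⁻¹), ← coeff_inv hf u]
  congr 2 <;> group

noncomputable instance : CommRing (S.alg R) :=
  { (S.alg R).toRing with mul_comm := fun a b => Subtype.ext (mul_comm_of_mem a.2 b.2) }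

/-- Elements agreeing on all rotations are equal. -/
theorem ext_r {f g : MonoidAlgebra R (DihedralGroup m)} (hf : f ∈ S.alg R) (hg : g ∈ S.alg R)
    (h : ∀ i : ZMod m, f.coeff (.r i) = g.coeff (.r i)) : f = g := by
  ext x
  obtain ⟨i, hi⟩ := S.meet x
  rw [hf x _ hi, hg x _ hi, h]

variable (S R)

/-- The indicator of a basic set. -/
noncomputable def ind (a : DihedralGroup m) : MonoidAlgebra R (DihedralGroup m) :=
  ofFn fun x => if S.rel a x then 1 else 0

theorem ind_mem (a : DihedralGroup m) : S.ind R a ∈ S.alg R := fun x y h => by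
  simp only [ind, coeff_ofFn]
  by_cases hx : S.rel a x
  · rw [if_pos hx, if_pos (S.equiv.trans hx h)]
  · rw [if_neg hx, if_neg fun hy => hx (S.equiv.trans hy (S.equiv.symm h))]

theorem coeff_ind (a x : DihedralGroup m) :
    (S.ind R a).coeff x = if S.rel a x then 1 else 0 := by
  rw [ind, coeff_ofFn]

theorem coeff_ind_mul (a b x : DihedralGroup m) : (S.ind R a * S.ind R b).coeff x =
    ((Finset.univ.filter fun u => S.rel a u ∧ S.rel b (u⁻¹ * x)).card : ℕ) := by
  rw [coeff_mul', ← Finset.sum_boole]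
  refine Finset.sum_congr rfl fun u _ => ?_
  rw [coeff_ind, coeff_ind, ite_zero_mul_ite_zero, one_mul]

variable {S R}

/-- A function in the S-ring with a non-trivial left period is constant. -/
theorem const_of_period {f : MonoidAlgebra ℤ (DihedralGroup m)} (hf : f ∈ S.alg ℤ)
    {c : DihedralGroup m} (hc : c ≠ 1) (h : ∀ x, f.coeff (c * x) = f.coeff x)
    (x : DihedralGroup m) : f.coeff x = f.coeff 1 := by
  let v := f.coeff 1
  let H : Subgroup (DihedralGroup m) :=
    { carrier := {g | ∀ z, f.coeff (g * z) = v ↔ f.coeff z = v}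
      one_mem' := fun z => by rw [one_mul]
      mul_mem' := fun {a b} ha hb z => by rw [mul_assoc, ha, hb]
      inv_mem' := fun {a} ha z => by rw [← ha (a⁻¹ * z), mul_inv_cancel_left] }
  let χ : MonoidAlgebra ℤ (DihedralGroup m) := ofFn fun z => if f.coeff z = v then 1 else 0
  have hχ : χ ∈ S.alg ℤ := fun a b hab => by
    simp only [χ, coeff_ofFn, hf a b hab]
  let T := Finset.univ.filter fun z => f.coeff z = v
  have hcount : ∀ g, (χ * χ).coeff g = ((T.filter fun z => f.coeff (g⁻¹ * z) = v).card : ℤ) := by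
    intro g
    rw [coeff_mul']
    simp only [T, Finset.filter_filter, ← Finset.sum_boole]
    refine Finset.sum_congr rfl fun u _ => ?_
    rw [← coeff_inv hχ (u⁻¹ * g)]
    simp only [χ, coeff_ofFn, mul_inv_rev, inv_inv, ite_zero_mul_ite_zero, one_mul]
  have hH : ∀ g, g ∈ H ↔ (χ * χ).coeff g = (T.card : ℤ) := by
    intro g
    rw [hcount, Nat.cast_inj]
    refine ⟨fun hg => ?_, fun hg => ?_⟩
    · congr 1
      refine Finset.filter_true_of_mem fun z hz => ?_
      exact (H.inv_mem hg z).2 (Finset.mem_filter.1 hz).2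
    · have hsub : ∀ z, f.coeff z = v → f.coeff (g⁻¹ * z) = v := fun z hz => by
        have hz' : z ∈ T := Finset.mem_filter.2 ⟨Finset.mem_univ z, hz⟩
        rw [← Finset.eq_of_subset_of_card_le (Finset.filter_subset _ _) hg.ge] at hz'
        exact (Finset.mem_filter.1 hz').2
      have himg : T.image (fun z => g⁻¹ * z) = T :=
        Finset.eq_of_subset_of_card_le
          (Finset.image_subset_iff.2 fun z hz => Finset.mem_filter.2
            ⟨Finset.mem_univ _, hsub z (Finset.mem_filter.1 hz).2⟩)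
          (Finset.card_image_of_injective _ (mul_right_injective g⁻¹)).ge
      refine inv_inv g ▸ H.inv_mem fun z => ⟨fun hz => ?_, hsub z⟩
      have hmem : g⁻¹ * z ∈ T.image (fun z => g⁻¹ * z) :=
        himg.symm ▸ Finset.mem_filter.2 ⟨Finset.mem_univ _, hz⟩
      obtain ⟨w, hw, hw'⟩ := Finset.mem_image.1 hmem
      exact mul_left_cancel hw' ▸ (Finset.mem_filter.1 hw).2
  have hinv : ∀ a b, S.rel a b → a ∈ H → b ∈ H := fun a b hab ha => by
    rw [hH] at ha ⊢
    rw [← (S.alg ℤ).mul_mem hχ hχ a b hab, ha]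
  have hcH : c ∈ H := fun z => by rw [h]
  rcases S.prim H hinv with h1 | h1
  · exact absurd (Subgroup.mem_bot.1 (h1 ▸ hcH)) hc
  · have := (h1 ▸ Subgroup.mem_top x : x ∈ H) 1
    rw [mul_one] at this
    exact this.2 rfl

end Scheme

end Cfsg.Agent.H28.DihedralSRing
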