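import Mathlib

/-!
# Sets with two intersection numbers invariant under a subgroup
-/

set_option autoImplicit false

namespace Cfsg.Agent.H28.DihedralSRing

open Finset

variable {C : Type*} [AddCommGroup C] [Fintype C] (H : AddSubgroup C) [Fintype H]

theorem card_dvd_sum {g : C → ℤ} (hg : ∀ a, ∀ h ∈ H, g (a + h) = g a) :
    (Fintype.card H : ℤ) ∣ ∑ a, g a := by
  classical
  rw [← Equiv.sum_comp (AddSubgroup.addGroupEquivQuotientProdAddSubgroup (s := H)).symm g,
    Fintype.sum_prod_type]
  refine Finset.dvd_sum fun q _ => ?_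
  have : ∀ h : H, g ((AddSubgroup.addGroupEquivQuotientProdAddSubgroup (s := H)).symm (q, h)) =
      g q.out := by
    intro h
    obtain ⟨k, hk, hk'⟩ : ∃ k ∈ H,
        (AddSubgroup.addGroupEquivQuotientProdAddSubgroup (s := H)).symm (q, h) = q.out + k := by
      refine ⟨-q.out + (AddSubgroup.addGroupEquivQuotientProdAddSubgroup (s := H)).symm (q, h),
        ?_, by rw [add_neg_cancel_left]⟩
      rw [← QuotientAddGroup.eq, QuotientAddGroup.out_eq']
      have := congrArg Prod.fst
        ((AddSubgroup.addGroupEquivQuotientProdAddSubgroup (s := H)).apply_symm_apply (q, h))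
      exact this.symm
    rw [hk', hg _ k hk]
  rw [Finset.sum_congr rfl fun h _ => this h, Finset.sum_const, nsmul_eq_mul]
  exact dvd_mul_right _ _

open scoped Classical in
/-- The counting argument. -/
theorem counting {X Y : C → ℤ} {μ N : ℤ} (hX01 : ∀ a, X a = 0 ∨ X a = 1)
    (hY01 : ∀ a, Y a = 0 ∨ Y a = 1) (hX0 : X 0 = 0) (hXsymm : ∀ a, X (-a) = X a)
    (hXinv : ∀ a, ∀ h ∈ H, X (a + h) = X a) {a0 : C} (ha0 : X a0 = 1)
    (hE1 : ∀ b, ∑ i, X i * X (b - i) + ∑ i, Y i * Y (i + b) = μ + if b = 0 then N else 0)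
    (hE2 : ∀ b, 2 * ∑ i, Y i * X (b - i) = μ) :
    N ≠ 0 ∧ (Fintype.card H : ℤ) ^ 2 ∣ N ∧ Fintype.card H ≤ 2 := by
  set m : ℤ := (Fintype.card C : ℤ) with hm
  set r : ℤ := (Fintype.card H : ℤ) with hr
  set x : ℤ := ∑ a, X a with hx
  set y : ℤ := ∑ a, Y a with hy
  have hXsq : ∀ a, X a * X a = X a := fun a => by rcases hX01 a with h | h <;> simp [h]
  have hYsq : ∀ a, Y a * Y a = Y a := fun a => by rcases hY01 a with h | h <;> simp [h]
  have hXY : ∀ b, 2 * ∑ i, X i * Y (b - i) = μ := fun b => by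
    rw [← hE2 b]
    congr 1
    exact Fintype.sum_equiv (Equiv.subLeft b) _ _ fun i => by simp [mul_comm]
  -- totals
  have e1 : x * x + y * y = m * μ + N := by
    have h := Finset.sum_congr (rfl : (univ : Finset C) = univ) fun b _ => hE1 b
    rw [sum_add_distrib, sum_add_distrib, sum_comm, sum_const, nsmul_eq_mul,
      sum_ite_eq' univ (0 : C), if_pos (mem_univ _), card_univ] at h
    rw [← h]
    congr 1
    · rw [hx, sum_mul]
      refine sum_congr rfl fun i _ => ?_
      rw [← mul_sum]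
      congr 1
      exact (Equiv.sum_comp (Equiv.subRight i) X).symm
    · rw [sum_comm, hy, sum_mul]
      refine sum_congr rfl fun i _ => ?_
      rw [← mul_sum]
      congr 1
      exact (Equiv.sum_comp (Equiv.addLeft i) Y).symm
  have e2 : 2 * (x * y) = m * μ := by
    have h := Finset.sum_congr (rfl : (univ : Finset C) = univ) fun b _ => hE2 b
    rw [← mul_sum, sum_comm, sum_const, nsmul_eq_mul, card_univ] at h
    rw [hm, ← h, mul_comm x, hy, sum_mul]
    congr 1
    refine sum_congr rfl fun i _ => ?_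
    rw [← mul_sum]
    congr 1
    exact (Equiv.sum_comp (Equiv.subRight i) X).symm
  have e3 : x + y = μ + N := by
    have h := hE1 0
    simp only [zero_sub, hXsymm, add_zero, hXsq, hYsq, if_pos] at h
    rw [← hx, ← hy] at h
    exact h
  have hxm : x ≤ m - 1 := by
    rw [hx, ← add_sum_erase univ X (mem_univ (0 : C)), hX0, zero_add]
    refine (sum_le_card_nsmul _ _ 1 fun a _ => by rcases hX01 a with h | h <;> simp [h]).trans ?_
    rw [card_erase_of_mem (mem_univ _), card_univ, nsmul_one, hm,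
      Nat.cast_sub Fintype.card_pos, Nat.cast_one]
  have hx1 : 1 ≤ x :=
    ha0.ge.trans (single_le_sum (f := X) (fun a _ => by rcases hX01 a with h | h <;> simp [h])
      (mem_univ a0))
  have hy0 : 0 ≤ y := sum_nonneg fun a _ => by rcases hY01 a with h | h <;> simp [h]
  have hym : y ≤ m := by
    refine (sum_le_card_nsmul _ _ 1 fun a _ => by rcases hY01 a with h | h <;> simp [h]).trans ?_
    rw [card_univ, nsmul_one]
  have hN : N = (x - y) ^ 2 := by linear_combination -e1 + e2
  have hr1 : 1 ≤ r := by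
    have : 0 < Fintype.card H := Fintype.card_pos
    omega
  -- the Cauchy inequality
  have hP : ∑ h : H, ∑ i, Y i * Y (i + h) = r * μ + N - r * x := by
    have h1 := Finset.sum_congr (rfl : (univ : Finset H) = univ) fun h _ => hE1 (h : C)
    rw [sum_add_distrib, sum_add_distrib, sum_const, nsmul_eq_mul, card_univ] at h1
    have h2 : ∀ h : H, ∑ i, X i * X ((h : C) - i) = x := by
      intro h
      refine sum_congr rfl fun i _ => ?_
      rw [sub_eq_neg_add, hXinv _ _ h.2, hXsymm, hXsq]
    have h3 : ∑ h : H, (if (h : C) = 0 then N else 0) = N := by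
      simp [ZeroMemClass.coe_eq_zero]
    rw [sum_congr rfl fun h _ => h2 h, sum_const, nsmul_eq_mul, card_univ, h3, ← hr] at h1
    linear_combination h1
  have hcauchy : r * y ^ 2 ≤ m * ∑ h : H, ∑ i, Y i * Y (i + h) := by
    have hsum : ∑ a, ∑ h : H, Y (a + h) = r * y := by
      have hY' : ∀ h : H, ∑ a, Y (a + h) = y := fun h => by
        rw [hy]; exact Equiv.sum_comp (Equiv.addRight (h : C)) Y
      rw [sum_comm, sum_congr rfl fun (h : H) _ => hY' h, sum_const,
        nsmul_eq_mul, card_univ]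
    have hsq : ∑ a, (∑ h : H, Y (a + h)) ^ 2 = r * ∑ h : H, ∑ i, Y i * Y (i + h) := by
      simp only [sq, sum_mul_sum]
      rw [sum_comm]
      have : ∀ g : H, ∑ a, ∑ h : H, Y (a + g) * Y (a + h) = ∑ h : H, ∑ i, Y i * Y (i + h) := by
        intro g
        rw [sum_comm, ← Equiv.sum_comp (Equiv.addLeft g)]
        refine sum_congr rfl fun h _ => ?_
        refine Fintype.sum_equiv (Equiv.addRight (g : C)) _ _ fun a => ?_
        simp [add_assoc]
      rw [sum_congr rfl fun g _ => this g, sum_const, nsmul_eq_mul, card_univ]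
    have h := sq_sum_le_card_mul_sum_sq (s := (univ : Finset C))
      (f := fun a => ∑ h : H, Y (a + h))
    rw [hsum, hsq, card_univ] at h
    have h' : r * (r * y ^ 2) ≤ r * (m * ∑ h : H, ∑ i, Y i * Y (i + h)) := by
      rw [hm]; linarith
    exact le_of_mul_le_mul_left h' (by omega)
  rw [hP] at hcauchy
  have hmain : r * (x * (m - x)) ≤ (m - r) * N := by
    have e4 : r * (y ^ 2 + (x * x - m * μ - N)) = 0 := by
      rw [show y ^ 2 + (x * x - m * μ - N) = 0 by linear_combination e1, mul_zero]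
    linarith
  have hN0 : N ≠ 0 := by
    intro h0
    rw [h0, mul_zero] at hmain
    have : 0 < r * (x * (m - x)) := mul_pos (by omega) (mul_pos (by omega) (by omega))
    omega
  -- divisibility
  have hXXinv : ∀ b, ∀ h ∈ H, ∑ i, X i * X (b + h - i) = ∑ i, X i * X (b - i) := fun b h hh =>
    sum_congr rfl fun i _ => by rw [add_sub_right_comm, hXinv _ _ hh]
  have hXXdvd : ∀ b, r ∣ ∑ i, X i * X (b - i) := fun b => card_dvd_sum H fun i h hh => by
    rw [hXinv _ _ hh, sub_add_eq_sub_sub, sub_eq_add_neg (b - i), hXinv _ _ (H.neg_mem hh)]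
  let G : C → ℤ := fun b => (∑ i, X i * X (b - i)) / r
  have hG : ∀ b, ∑ i, X i * X (b - i) = r * G b := fun b => (Int.mul_ediv_cancel' (hXXdvd b)).symm
  let X3 : C → ℤ := fun a => ∑ i, X i * ∑ j, X j * X (a - i - j)
  have hX3 : ∀ a, r ^ 2 ∣ X3 a := by
    intro a
    have : X3 a = r * ∑ i, X i * G (a - i) := by
      simp only [X3]
      rw [mul_sum]
      exact sum_congr rfl fun i _ => by rw [hG]; ring
    rw [this, sq]
    refine mul_dvd_mul_left r (card_dvd_sum H fun i h hh => ?_)
    rw [hXinv _ _ hh]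
    congr 1
    simp only [G]
    rw [sub_add_eq_sub_sub, sub_eq_add_neg (a - i), hXXinv _ _ (H.neg_mem hh)]
  have hX3eq : ∀ a, 2 * X3 a = 2 * μ * x + 2 * N * X a - μ * y := by
    intro a
    have h := Finset.sum_congr (rfl : (univ : Finset C) = univ)
      fun i _ => congrArg (fun t => X i * t) (hE1 (a - i))
    simp only [mul_add, sum_add_distrib] at h
    have h4 : 2 * ∑ i, X i * ∑ j, Y j * Y (j + (a - i)) = μ * y := by
      simp only [mul_sum]
      rw [sum_comm, hy, mul_sum]
      refine sum_congr rfl fun j _ => ?_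
      rw [← hXY (j + a), mul_sum, sum_mul]
      refine sum_congr rfl fun i _ => ?_
      rw [add_sub_assoc]; ring
    have h5 : ∑ i, X i * μ = x * μ := by rw [hx, sum_mul]
    have h6 : ∑ i, X i * (if a - i = 0 then N else 0) = X a * N := by
      simp [sub_eq_zero]
    rw [h5, h6] at h
    simp only [X3]
    linear_combination 2 * h - h4
  have hdvd : r ^ 2 ∣ N := by
    have h := dvd_sub (hX3 a0) (hX3 0)
    have he : X3 a0 - X3 0 = N := by
      refine mul_left_cancel₀ (two_ne_zero (α := ℤ)) ?_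
      rw [mul_sub, hX3eq, hX3eq, ha0, hX0]; ring
    rwa [he] at h
  refine ⟨hN0, hdvd, ?_⟩
  by_contra hcon
  have hr3 : 3 ≤ r := by omega
  set s : ℤ := |x - y| with hs
  have hNs : N = s ^ 2 := by rw [hN, hs, sq_abs]
  have hs0 : 0 < s := abs_pos.2 fun h => hN0 (by rw [hN, h]; ring)
  have hrs : r ≤ s := by
    rw [hNs] at hdvd
    exact Int.le_of_dvd hs0 ((Int.pow_dvd_pow_iff two_ne_zero).1 hdvd)
  have hd : y * (m - y) - x * (m - x) ≤ s * (m - 1) := by
    have hk : |m - x - y| ≤ m - 1 := abs_le.2 ⟨by omega, by omega⟩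
    calc y * (m - y) - x * (m - x) = (y - x) * (m - x - y) := by ring
      _ ≤ |(y - x) * (m - x - y)| := le_abs_self _
      _ = s * |m - x - y| := by rw [abs_mul, abs_sub_comm]
      _ ≤ s * (m - 1) := mul_le_mul_of_nonneg_left hk hs0.le
  have e5 : y * (m - y) + x * (m - x) = (m - 1) * N := by linear_combination m * e3 - e1
  have h7 : s * (((r - 2) * m + r) * s) ≤ s * (r * (m - 1)) := by
    rw [hNs] at hmain e5
    nlinarith [mul_le_mul_of_nonneg_left hd (show 0 ≤ r by omega),
      congrArg (fun t => r * t) e5]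
  have h8 := le_of_mul_le_mul_left h7 hs0
  have hmr : (3 : ℤ) ≤ r ∧ 1 ≤ m := ⟨hr3, by omega⟩
  have hpos : 0 < (r - 2) * m + r := by nlinarith
  nlinarith [mul_le_mul_of_nonneg_left hrs hpos.le,
    mul_nonneg (mul_nonneg (show 0 ≤ r - 3 by omega) (show 0 ≤ m by omega)) (show 0 ≤ r by omega)]

end Cfsg.Agent.H28.DihedralSRing
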