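import Mathlib
import Cfsg.Agent.H28.DihedralSRing.Basic

/-!
# Powers in the group algebra of a dihedral group
-/

set_option autoImplicit false

namespace Cfsg.Agent.H28.DihedralSRing

open MonoidAlgebra

open scoped Classical

variable {m : ℕ} [NeZero m] {R : Type*} [CommRing R]

/-- Supported on rotations. -/
def IsC (g : MonoidAlgebra R (DihedralGroup m)) : Prop := ∀ i, g.coeff (.sr i) = 0

/-- Supported on reflections. -/
def IsT (g : MonoidAlgebra R (DihedralGroup m)) : Prop := ∀ i, g.coeff (.r i) = 0

theorem IsC.mul {f g : MonoidAlgebra R (DihedralGroup m)} (hf : IsC f) (hg : IsC g) :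
    IsC (f * g) := fun a => by simp [coeff_mul_sr, hf _, hg _]

theorem IsC.mul_isT {f g : MonoidAlgebra R (DihedralGroup m)} (hf : IsC f) (hg : IsT g) :
    IsT (f * g) := fun a => by simp [coeff_mul_r, hf _, hg _]

theorem IsT.mul_isC {f g : MonoidAlgebra R (DihedralGroup m)} (hf : IsT f) (hg : IsC g) :
    IsT (f * g) := fun a => by simp [coeff_mul_r, hf _, hg _]

theorem IsT.mul {f g : MonoidAlgebra R (DihedralGroup m)} (hf : IsT f) (hg : IsT g) :
    IsC (f * g) := fun a => by simp [coeff_mul_sr, hf _, hg _]

theorem IsT.pow {f : MonoidAlgebra R (DihedralGroup m)} (hf : IsT f) :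
    ∀ k : ℕ, IsC (f ^ (2 * k)) ∧ IsT (f ^ (2 * k + 1))
  | 0 => by
    refine ⟨fun i => ?_, by simpa using hf⟩
    rw [mul_zero, pow_zero, MonoidAlgebra.one_def, coeff_single, Finsupp.single_apply,
      if_neg (by rw [DihedralGroup.one_def]; exact fun h => nomatch h)]
  | k + 1 => by
    have h1 : IsC (f ^ (2 * (k + 1))) := by
      rw [show 2 * (k + 1) = (2 * k + 1) + 1 by ring, pow_succ]
      exact (IsT.pow hf k).2.mul hf
    exact ⟨h1, by rw [pow_succ]; exact h1.mul_isT hf⟩

variable (m) in
/-- The rotations. -/
def rot : Multiplicative (ZMod m) →* DihedralGroup m where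
  toFun i := .r i.toAdd
  map_one' := rfl
  map_mul' _ _ := rfl

variable (m R) in
/-- The group algebra of the rotations inside the group algebra. -/
noncomputable def incl :
    MonoidAlgebra R (Multiplicative (ZMod m)) →+* MonoidAlgebra R (DihedralGroup m) :=
  MonoidAlgebra.mapDomainRingHom R (rot m)

theorem rot_injective : Function.Injective (rot m) := fun a b h => by
  exact Multiplicative.toAdd.injective (DihedralGroup.r.inj h)

theorem incl_single (i : ZMod m) (c : R) :
    incl m R (single (Multiplicative.ofAdd i) c) = single (DihedralGroup.r i) c := by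
  simp [incl, rot]; rfl

theorem incl_injective : Function.Injective (incl m R) :=
  MonoidAlgebra.mapDomain_injective rot_injective

/-- The element of the rotation algebra with prescribed coefficients. -/
noncomputable def ofFnC (F : ZMod m → R) : MonoidAlgebra R (Multiplicative (ZMod m)) :=
  ∑ i, single (Multiplicative.ofAdd i) (F i)

theorem coeff_ofFnC (F : ZMod m → R) (a : ZMod m) :
    (ofFnC F).coeff (Multiplicative.ofAdd a) = F a := by
  simp [ofFnC, Finsupp.single_apply]

theorem incl_isC (x : MonoidAlgebra R (Multiplicative (ZMod m))) : IsC (incl m R x) := fun i => by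
  rw [← sum_coeff_single x, map_finsuppSum, coeff_finsuppSum, Finsupp.sum_apply]
  refine Finset.sum_eq_zero fun a _ => ?_
  induction a using Multiplicative.rec with
  | ofAdd a => simp [incl_single]

theorem coeff_incl (x : MonoidAlgebra R (Multiplicative (ZMod m))) (i : ZMod m) :
    (incl m R x).coeff (.r i) = x.coeff (Multiplicative.ofAdd i) := by
  conv_rhs => rw [← sum_coeff_single x]
  rw [← sum_coeff_single x, map_finsuppSum, coeff_finsuppSum, Finsupp.sum_apply, coeff_finsuppSum,
    Finsupp.sum_apply, sum_coeff_single]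
  refine Finset.sum_congr rfl fun a _ => ?_
  induction a using Multiplicative.rec with
  | ofAdd a => simp [incl_single, Finsupp.single_apply]

/-- The rotation part. -/
noncomputable def cPart (f : MonoidAlgebra R (DihedralGroup m)) : MonoidAlgebra R (DihedralGroup m) :=
  incl m R (ofFnC fun i => f.coeff (.r i))

/-- The reflection part. -/
noncomputable def tPart (f : MonoidAlgebra R (DihedralGroup m)) : MonoidAlgebra R (DihedralGroup m) :=
  f - cPart f

theorem coeff_cPart (f : MonoidAlgebra R (DihedralGroup m)) (i : ZMod m) :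
    (cPart f).coeff (.r i) = f.coeff (.r i) := by
  rw [cPart, coeff_incl, coeff_ofFnC]

theorem isC_cPart (f : MonoidAlgebra R (DihedralGroup m)) : IsC (cPart f) := incl_isC _

theorem isT_tPart (f : MonoidAlgebra R (DihedralGroup m)) : IsT (tPart f) := fun i => by
  simp [tPart, coeff_cPart]

theorem coeff_tPart (f : MonoidAlgebra R (DihedralGroup m)) (i : ZMod m) :
    (tPart f).coeff (.sr i) = f.coeff (.sr i) := by
  simp [tPart, isC_cPart f i]

theorem commute_parts {f : MonoidAlgebra R (DihedralGroup m)}
    (hf : ∀ i, f.coeff (.r (-i)) = f.coeff (.r i)) : Commute (cPart f) (tPart f) := by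
  ext x
  rcases x with a | a
  · rw [(isC_cPart f).mul_isT (isT_tPart f) a, (isT_tPart f).mul_isC (isC_cPart f) a]
  · rw [coeff_mul_sr, coeff_mul_sr]
    simp only [(isC_cPart f) _, (isT_tPart f) _, coeff_cPart, coeff_tPart, zero_mul, mul_zero,
      Finset.sum_const_zero, add_zero, zero_add]
    refine Fintype.sum_equiv (Equiv.addLeft a) _ _ fun i => ?_
    simp only [Equiv.coe_addLeft, sub_add_cancel_left, hf, mul_comm]

/-- The rotation coefficients of a `p`-th power in characteristic `p`. -/
theorem coeff_pow_r {p : ℕ} [hp : Fact p.Prime] (hp2 : p ≠ 2)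
    {f : MonoidAlgebra (ZMod p) (DihedralGroup m)}
    (hf : ∀ i, f.coeff (.r (-i)) = f.coeff (.r i)) (a : ZMod m) :
    (f ^ p).coeff (.r a) = ∑ i ∈ Finset.univ.filter (fun i => p • i = a), f.coeff (.r i) := by
  haveI : CharP (MonoidAlgebra (ZMod p) (DihedralGroup m)) p :=
    charP_of_injective_ringHom (f := MonoidAlgebra.singleOneRingHom)
      MonoidAlgebra.single_right_injective p
  haveI : CharP (MonoidAlgebra (ZMod p) (Multiplicative (ZMod m))) p :=
    charP_of_injective_ringHom (f := MonoidAlgebra.singleOneRingHom)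
      MonoidAlgebra.single_right_injective p
  haveI : ExpChar (MonoidAlgebra (ZMod p) (DihedralGroup m)) p := ExpChar.prime hp.out
  haveI : ExpChar (MonoidAlgebra (ZMod p) (Multiplicative (ZMod m))) p := ExpChar.prime hp.out
  have hsplit : f ^ p = cPart f ^ p + tPart f ^ p := by
    rw [← add_pow_char_of_commute p (commute_parts hf), tPart, add_sub_cancel]
  obtain ⟨k, hk⟩ : ∃ k, p = 2 * k + 1 := hp.out.odd_of_ne_two hp2
  have hT : IsT (tPart f ^ p) := hk ▸ ((isT_tPart f).pow k).2
  rw [hsplit, coeff_add, Finsupp.add_apply, hT a, add_zero, cPart, ← map_pow, coeff_incl, ofFnC,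
    sum_pow_char, coeff_sum, Finsupp.finsetSum_apply, Finset.sum_filter]
  refine Finset.sum_congr rfl fun i _ => ?_
  rw [single_pow, ZMod.pow_card, coeff_single, Finsupp.single_apply]
  simp only [← ofAdd_nsmul, EmbeddingLike.apply_eq_iff_eq]

end Cfsg.Agent.H28.DihedralSRing
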