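import Mathlib
import Cfsg.Agent.H28.DihedralSRing.Power

/-!
# Multipliers and the rational fusion of a dihedral S-ring
-/

set_option autoImplicit false

namespace Cfsg.Agent.H28.DihedralSRing

open MonoidAlgebra

open scoped Classical

variable {m : ℕ} [NeZero m]

/-- A rational scheme. -/
def Scheme.IsRational (S : Scheme m) : Prop :=
  ∀ i j : ZMod m, addOrderOf i = addOrderOf j → S.rel (.r i) (.r j)

theorem addOrderOf_unit_mul {u : ZMod m} (hu : IsUnit u) (x : ZMod m) :
    addOrderOf (u * x) = addOrderOf x :=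
  addOrderOf_injective (AddMonoidHom.mulLeft u) hu.mul_right_injective x

theorem exists_unit_of_addOrderOf_eq {i j : ZMod m} (h : addOrderOf i = addOrderOf j) :
    ∃ u : (ZMod m)ˣ, j = u * i := by
  obtain ⟨d, hd, u, hu, hi⟩ := ZMod.eq_unit_mul_divisor i
  obtain ⟨e, he, w, hw, hj⟩ := ZMod.eq_unit_mul_divisor j
  rw [hi, hj, addOrderOf_unit_mul hu, addOrderOf_unit_mul hw,
    ZMod.addOrderOf_coe _ (NeZero.ne m), ZMod.addOrderOf_coe _ (NeZero.ne m),
    Nat.gcd_eq_right hd, Nat.gcd_eq_right he] at h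
  have hde : d = e := by
    rw [← Nat.div_div_self hd (NeZero.ne m), h, Nat.div_div_self he (NeZero.ne m)]
  refine ⟨hw.unit * hu.unit⁻¹, ?_⟩
  rw [hi, hj, hde, Units.val_mul, IsUnit.unit_spec, mul_assoc, ← mul_assoc _ u,
    IsUnit.val_inv_mul, one_mul]

variable {S : Scheme m}

theorem coeff_pow_unit {p : ℕ} [Fact p.Prime] (hp2 : p ≠ 2)
    {f : MonoidAlgebra (ZMod p) (DihedralGroup m)} (hf : f ∈ S.alg (ZMod p))
    {u : (ZMod m)ˣ} (hu : (p : ZMod m) = u) (a : ZMod m) :
    (f ^ p).coeff (.r (u * a)) = f.coeff (.r a) := by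
  rw [coeff_pow_r hp2 (fun i => Scheme.coeff_r_neg hf i)]
  have : (Finset.univ.filter fun i : ZMod m => p • i = u * a) = {a} := by
    ext i
    simp [nsmul_eq_mul, hu, u.isUnit.mul_right_inj]
  rw [this, Finset.sum_singleton]

theorem exists_prime (u : (ZMod m)ˣ) (N : ℕ) :
    ∃ p : ℕ, p.Prime ∧ p ≠ 2 ∧ N < p ∧ (p : ZMod m) = u := by
  obtain ⟨p, hp, hprime, he⟩ := Nat.forall_exists_prime_gt_and_eq_mod u.isUnit (max N 2)
  exact ⟨p, hprime, by omega, by omega, he⟩

namespace Scheme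

variable (S)

theorem rel_mult (u : (ZMod m)ˣ) {i j : ZMod m} (h : S.rel (.r i) (.r j)) :
    S.rel (.r (u * i)) (.r (u * j)) := by
  obtain ⟨p, hp, hp2, -, hpu⟩ := exists_prime u⁻¹ 0
  haveI := Fact.mk hp
  have hmem := S.ind_mem (ZMod p) (.r (u * i))
  have h1 := coeff_pow_unit hp2 hmem hpu (u * i)
  have h2 := coeff_pow_unit hp2 hmem hpu (u * j)
  rw [Units.inv_mul_cancel_left] at h1 h2
  rw [(S.alg (ZMod p)).pow_mem hmem p _ _ h, h2, S.coeff_ind, S.coeff_ind,
    if_pos (S.equiv.refl _)] at h1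
  by_contra hne
  rw [if_neg hne] at h1
  exact zero_ne_one h1

/-- The fused relation. -/
def rel' (x y : DihedralGroup m) : Prop :=
  ∃ i j : ZMod m, ∃ u : (ZMod m)ˣ, S.rel x (.r i) ∧ S.rel y (.r j) ∧ j = u * i

theorem rel'_of_rel {x y : DihedralGroup m} (h : S.rel x y) : S.rel' x y := by
  obtain ⟨i, hi⟩ := S.meet x
  exact ⟨i, i, 1, hi, S.equiv.trans (S.equiv.symm h) hi, by simp⟩

theorem rel'_equiv : Equivalence S.rel' where
  refl x := S.rel'_of_rel (S.equiv.refl x)
  symm := fun ⟨i, j, u, hi, hj, e⟩ => ⟨j, i, u⁻¹, hj, hi, by simp [e]⟩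
  trans := by
    rintro x y z ⟨i, j, u, hi, hj, rfl⟩ ⟨i', k, w, hi', hk, rfl⟩
    refine ⟨i, w * (u * i), w * u, hi, ?_, by rw [Units.val_mul, mul_assoc]⟩
    exact S.equiv.trans hk (S.rel_mult w (S.equiv.trans (S.equiv.symm hi') hj))

theorem coeff_fused_product {p : ℕ} [Fact p.Prime] (hp2 : p ≠ 2) {u : (ZMod m)ˣ}
    (hu : (p : ZMod m) = u) (a b : DihedralGroup m) {i : ZMod m} :
    ((Finset.univ.filter fun z => S.rel' a z ∧ S.rel' b (z⁻¹ * .r i)).card : ZMod p) =
      ((Finset.univ.filter fun z => S.rel' a z ∧ S.rel' b (z⁻¹ * .r (u * i))).card : ZMod p) := by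
  let F : DihedralGroup m → MonoidAlgebra (ZMod p) (DihedralGroup m) :=
    fun a => ofFn fun z => if S.rel' a z then 1 else 0
  have hF : ∀ a, F a ∈ S.alg (ZMod p) := by
    intro a x y h
    simp only [F, coeff_ofFn]
    have := S.rel'_of_rel h
    exact if_congr ⟨fun h1 => S.rel'_equiv.trans h1 this,
      fun h1 => S.rel'_equiv.trans h1 (S.rel'_equiv.symm this)⟩ rfl rfl
  have hpow : ∀ a, F a ^ p = F a := by
    intro a
    refine Scheme.ext_r ((S.alg (ZMod p)).pow_mem (hF a) p) (hF a) fun j => ?_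
    obtain ⟨k, rfl⟩ : ∃ k, j = u * k := ⟨↑u⁻¹ * j, by simp⟩
    rw [coeff_pow_unit hp2 (hF a) hu]
    simp only [F, coeff_ofFn]
    have : S.rel' (.r k) (.r (u * k)) := ⟨k, u * k, u, S.equiv.refl _, S.equiv.refl _, rfl⟩
    exact if_congr ⟨fun h1 => S.rel'_equiv.trans h1 this,
      fun h1 => S.rel'_equiv.trans h1 (S.rel'_equiv.symm this)⟩ rfl rfl
  have hprod : (F a * F b) ^ p = F a * F b := by
    rw [Commute.mul_pow (Scheme.mul_comm_of_mem (hF a) (hF b)), hpow, hpow]
  have h := coeff_pow_unit hp2 ((S.alg (ZMod p)).mul_mem (hF a) (hF b)) hu i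
  rw [hprod, coeff_mul', coeff_mul'] at h
  simp only [F, coeff_ofFn, ite_zero_mul_ite_zero, one_mul] at h
  rw [← Finset.sum_boole, ← Finset.sum_boole]
  exact h.symm

/-- The rational fusion. -/
noncomputable def fusion : Scheme m where
  rel := S.rel'
  equiv := S.rel'_equiv
  one_left := by
    rintro x ⟨i, j, u, hi, hj, rfl⟩
    have hi0 : i = 0 := by
      have := S.one_left _ hi
      rw [DihedralGroup.one_def] at this
      exact DihedralGroup.r.inj this
    rw [hi0, mul_zero, DihedralGroup.r_zero] at hj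
    exact S.one_left _ (S.equiv.symm hj)
  inv x := S.rel'_of_rel (S.inv x)
  count := by
    rintro a b x y ⟨i, j, u, hi, hj, rfl⟩
    obtain ⟨p, hp, hp2, hpN, hpu⟩ := exists_prime u (Fintype.card (DihedralGroup m))
    haveI := Fact.mk hp
    let F : DihedralGroup m → MonoidAlgebra ℤ (DihedralGroup m) :=
      fun a => ofFn fun z => if S.rel' a z then 1 else 0
    have hF : ∀ a, F a ∈ S.alg ℤ := by
      intro a x y h
      simp only [F, coeff_ofFn]
      have := S.rel'_of_rel h
      exact if_congr ⟨fun h1 => S.rel'_equiv.trans h1 this,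
        fun h1 => S.rel'_equiv.trans h1 (S.rel'_equiv.symm this)⟩ rfl rfl
    have hN : ∀ z, (F a * F b).coeff z =
        ((Finset.univ.filter fun u => S.rel' a u ∧ S.rel' b (u⁻¹ * z)).card : ℤ) := by
      intro z
      rw [coeff_mul', ← Finset.sum_boole]
      simp only [F, coeff_ofFn, ite_zero_mul_ite_zero, one_mul]
    have hx := (S.alg ℤ).mul_mem (hF a) (hF b) _ _ hi
    have hy := (S.alg ℤ).mul_mem (hF a) (hF b) _ _ hj
    rw [hN, hN, Nat.cast_inj] at hx hy
    rw [hx, hy]
    have hc := S.coeff_fused_product hp2 hpu a b (i := i)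
    rw [ZMod.natCast_eq_natCast_iff'] at hc
    rwa [Nat.mod_eq_of_lt (lt_of_le_of_lt (Finset.card_le_univ _) hpN),
      Nat.mod_eq_of_lt (lt_of_le_of_lt (Finset.card_le_univ _) hpN)] at hc
  meet x := (S.meet x).imp fun _ h => S.rel'_of_rel h
  prim H hH := S.prim H fun x y h => hH x y (S.rel'_of_rel h)

theorem fusion_isRational : S.fusion.IsRational := fun i j h => by
  obtain ⟨u, rfl⟩ := exists_unit_of_addOrderOf_eq h
  exact ⟨i, u * i, u, S.equiv.refl _, S.equiv.refl _, rfl⟩

theorem sum_coeff_pow {R : Type*} [CommRing R] (f : MonoidAlgebra R (DihedralGroup m)) :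
    ∀ k : ℕ, ∑ x, (f ^ k).coeff x = (∑ x, f.coeff x) ^ k
  | 0 => by simp [MonoidAlgebra.one_def, Finsupp.single_apply]
  | k + 1 => by
    rw [pow_succ, pow_succ, ← sum_coeff_pow f k]
    simp only [coeff_mul']
    rw [Finset.sum_comm, Finset.sum_mul]
    refine Finset.sum_congr rfl fun u _ => ?_
    rw [← Finset.mul_sum]
    congr 1
    exact Equiv.sum_comp (Equiv.mulLeft u⁻¹) fun z => f.coeff z

theorem card_class_eq {x y : DihedralGroup m} (h : S.rel' x y) :
    (Finset.univ.filter fun z => S.rel x z).card = (Finset.univ.filter fun z => S.rel y z).card ∧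
    (Finset.univ.filter fun k : ZMod m => S.rel x (.r k)).card =
      (Finset.univ.filter fun k : ZMod m => S.rel y (.r k)).card := by
  obtain ⟨i, j, u, hi, hj, rfl⟩ := h
  have hiff : ∀ k, S.rel x (.r k) ↔ S.rel y (.r (u * k)) := fun k =>
    ⟨fun h => S.equiv.trans hj (S.rel_mult u (S.equiv.trans (S.equiv.symm hi) h)),
      fun h => by
        have := S.rel_mult u⁻¹ (S.equiv.trans (S.equiv.symm hj) h)
        rw [Units.inv_mul_cancel_left, Units.inv_mul_cancel_left] at this
        exact S.equiv.trans hi this⟩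
  refine ⟨?_, ?_⟩
  · obtain ⟨p, hp, hp2, hpN, hpu⟩ := exists_prime u (Fintype.card (DihedralGroup m))
    haveI := Fact.mk hp
    have hpow : S.ind (ZMod p) x ^ p = S.ind (ZMod p) y := by
      refine Scheme.ext_r ((S.alg _).pow_mem (S.ind_mem _ x) p) (S.ind_mem _ y) fun k => ?_
      obtain ⟨k, rfl⟩ : ∃ l, k = u * l := ⟨↑u⁻¹ * k, by simp⟩
      rw [coeff_pow_unit hp2 (S.ind_mem _ x) hpu, S.coeff_ind, S.coeff_ind]
      exact if_congr (hiff k) rfl rfl
    have h := sum_coeff_pow (S.ind (ZMod p) x) p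
    rw [hpow, ZMod.pow_card] at h
    simp only [S.coeff_ind, Finset.sum_boole] at h
    rw [ZMod.natCast_eq_natCast_iff', Nat.mod_eq_of_lt (lt_of_le_of_lt (Finset.card_le_univ _) hpN),
      Nat.mod_eq_of_lt (lt_of_le_of_lt (Finset.card_le_univ _) hpN)] at h
    exact h.symm
  · exact Finset.card_equiv u.mulLeft fun k => by simp [hiff]

/-- If the fusion has rank two then so has the scheme. -/
theorem rel_of_fusion (h : ∀ x y : DihedralGroup m, x ≠ 1 → y ≠ 1 → S.rel' x y)
    {x y : DihedralGroup m} (hx : x ≠ 1) (hy : y ≠ 1) : S.rel x y := by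
  let q : DihedralGroup m → Quotient S.setoid := Quotient.mk _
  let E := (Finset.univ.erase (1 : DihedralGroup m)).image q
  have hne : ∀ {z w}, z ≠ 1 → S.rel z w → w ≠ 1 := fun {z w} hz hzw hw =>
    hz ((S.rel_one_iff hzw).2 hw)
  have h1 : ∀ b ∈ E, ((Finset.univ.erase (1 : DihedralGroup m)).filter fun z => q z = b).card =
      (Finset.univ.filter fun z => S.rel x z).card := by
    intro b hb
    obtain ⟨w, hw, rfl⟩ := Finset.mem_image.1 hb
    rw [(S.card_class_eq (h x w hx (Finset.ne_of_mem_erase hw))).1]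
    congr 1
    ext z
    simp only [Finset.mem_filter, Finset.mem_erase, Finset.mem_univ, and_true, true_and, q]
    exact ⟨fun hz => S.equiv.symm (Quotient.exact hz.2), fun hz =>
      ⟨hne (Finset.ne_of_mem_erase hw) hz, Quotient.sound (S.equiv.symm hz)⟩⟩
  have hr : ∀ k : ZMod m, DihedralGroup.r k = 1 ↔ k = 0 := fun k => by
    rw [DihedralGroup.one_def, DihedralGroup.r.injEq]
  have h2 : ∀ b ∈ E, ((Finset.univ.erase (0 : ZMod m)).filter fun k => q (.r k) = b).card =
      (Finset.univ.filter fun k : ZMod m => S.rel x (.r k)).card := by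
    intro b hb
    obtain ⟨w, hw, rfl⟩ := Finset.mem_image.1 hb
    rw [(S.card_class_eq (h x w hx (Finset.ne_of_mem_erase hw))).2]
    congr 1
    ext k
    simp only [Finset.mem_filter, Finset.mem_erase, Finset.mem_univ, and_true, true_and, q]
    exact ⟨fun hk => S.equiv.symm (Quotient.exact hk.2), fun hk =>
      ⟨fun h0 => hne (Finset.ne_of_mem_erase hw) hk ((hr k).2 h0),
        Quotient.sound (S.equiv.symm hk)⟩⟩
  have e1 : 2 * m - 1 = E.card * (Finset.univ.filter fun z => S.rel x z).card := by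
    have := Finset.card_eq_sum_card_image q (Finset.univ.erase (1 : DihedralGroup m))
    rw [Finset.sum_congr rfl h1, Finset.sum_const, smul_eq_mul,
      Finset.card_erase_of_mem (Finset.mem_univ _), Finset.card_univ, DihedralGroup.card] at this
    exact this
  have e2 : m - 1 = E.card * (Finset.univ.filter fun k : ZMod m => S.rel x (.r k)).card := by
    have := Finset.card_eq_sum_card_fiberwise (s := Finset.univ.erase (0 : ZMod m)) (t := E)
      (f := fun k => q (.r k)) fun k hk => Finset.mem_coe.2 (Finset.mem_image.2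
        ⟨_, Finset.mem_erase.2 ⟨fun h0 => Finset.ne_of_mem_erase (Finset.mem_coe.1 hk) ((hr k).1 h0),
          Finset.mem_univ _⟩, rfl⟩)
    rw [Finset.sum_congr rfl h2, Finset.sum_const, smul_eq_mul,
      Finset.card_erase_of_mem (Finset.mem_univ _), Finset.card_univ, ZMod.card] at this
    exact this
  have hd : E.card = 1 := by
    have hm := NeZero.pos m
    have hd1 : E.card ∣ 2 * m - 1 - 2 * (m - 1) :=
      Nat.dvd_sub (e1 ▸ dvd_mul_right _ _) (Dvd.dvd.mul_left (e2 ▸ dvd_mul_right _ _) 2)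
    rw [show 2 * m - 1 - 2 * (m - 1) = 1 by omega] at hd1
    exact Nat.dvd_one.1 hd1
  have hmem : ∀ z, z ≠ 1 → q z ∈ E := fun z hz =>
    Finset.mem_image.2 ⟨z, Finset.mem_erase.2 ⟨hz, Finset.mem_univ _⟩, rfl⟩
  exact Quotient.exact (Finset.card_le_one.1 hd.le _ (hmem x hx) _ (hmem y hy))

end Scheme

end Cfsg.Agent.H28.DihedralSRing
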