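import Mathlib

/-!
# No negacyclic weighing sequence of weight divisible by four
-/

set_option autoImplicit false

namespace Cfsg.Agent.H28.DihedralSRing

open Polynomial

/-- In the cyclotomic integers of two-power order, a `0, 1` sum has norm square not `4 N`. -/
theorem negacyclic {j m h : ℕ} [NeZero m] (hm : m = 2 ^ (j + 1)) (hh : h = 2 ^ j) {Y : ZMod m → ℤ}
    (hY : ∀ a, Y a = 0 ∨ Y a = 1)
    {Z : ZMod m → ℤ} (hZ : ∀ a, Z (a + (h : ℕ)) = Z a) {N : ℤ} (hN : N ≠ 0)
    (h4 : 4 ∣ N) (hE : ∀ b, ∑ i, Y i * Y (i + b) = Z b + if b = 0 then N else 0) : False := by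
  have hmh : m = h + h := by rw [hm, hh, pow_succ]; ring
  have hhpos : 0 < h := hh ▸ Nat.two_pow_pos j
  let Φ : ℤ[X] := X ^ h + 1
  have hΦm : Φ.Monic := monic_X_pow_add (by
    rw [degree_one]; exact_mod_cast hhpos)
  have hΦd : Φ.natDegree = h := by
    rw [show Φ = X ^ h + C 1 by simp [Φ], natDegree_X_pow_add_C]
  have hirr : Irreducible Φ := by
    have := cyclotomic.irreducible (n := 2 ^ (j + 1)) (Nat.two_pow_pos _)
    rw [cyclotomic_prime_pow_eq_geom_sum Nat.prime_two, Finset.sum_range_succ,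
      Finset.sum_range_succ, Finset.sum_range_zero, zero_add, pow_zero, pow_one, add_comm] at this
    simp only [Φ, hh]; exact this
  haveI : IsDomain (AdjoinRoot Φ) := AdjoinRoot.isDomain_of_prime hirr.prime
  let ζ : AdjoinRoot Φ := AdjoinRoot.root Φ
  have hζh : ζ ^ h = -1 := by
    have := AdjoinRoot.eval₂_root Φ
    simp only [Φ, eval₂_add, eval₂_X_pow, eval₂_one] at this
    linear_combination this
  have hζm : ζ ^ m = 1 := by rw [hmh, pow_add, hζh]; ring
  let χ : ZMod m → AdjoinRoot Φ := fun a => ζ ^ a.val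
  have hχ : ∀ a b, χ (a + b) = χ a * χ b := fun a b => by
    simp only [χ]
    rw [ZMod.val_add, ← pow_add]
    conv_rhs => rw [← Nat.mod_add_div (a.val + b.val) m, pow_add, pow_mul, hζm, one_pow, mul_one]
  have hχh : χ (h : ℕ) = -1 := by
    simp only [χ]
    rw [ZMod.val_natCast, Nat.mod_eq_of_lt (by omega), hζh]
  -- the two sums
  set y : AdjoinRoot Φ := ∑ a, (Y a : AdjoinRoot Φ) * χ a with hy
  set y' : AdjoinRoot Φ := ∑ a, (Y a : AdjoinRoot Φ) * χ (-a) with hy'
  have hcast : Function.Injective (Int.cast : ℤ → AdjoinRoot Φ) := by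
    have := AdjoinRoot.of.injective_of_degree_ne_zero (f := Φ) (by
      rw [degree_eq_natDegree hΦm.ne_zero, hΦd]; exact_mod_cast hhpos.ne')
    intro a b hab
    apply this
    rwa [eq_intCast, eq_intCast]
  haveI : CharZero (AdjoinRoot Φ) :=
    ⟨fun a b hab => by exact_mod_cast hcast (by exact_mod_cast hab : ((a : ℤ) : AdjoinRoot Φ) = (b : ℤ))⟩
  have hinvsum : ∑ b, (Z b : AdjoinRoot Φ) * χ b = 0 := by
    have h1 : ∑ b, (Z b : AdjoinRoot Φ) * χ b = -∑ b, (Z b : AdjoinRoot Φ) * χ b := by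
      conv_lhs => rw [← Equiv.sum_comp (Equiv.addRight ((h : ℕ) : ZMod m))]
      rw [← Finset.sum_neg_distrib]
      refine Finset.sum_congr rfl fun b _ => ?_
      simp only [Equiv.coe_addRight]
      rw [hZ, hχ, hχh]; ring
    exact self_eq_neg.1 h1
  have hprod : y' * y = (N : AdjoinRoot Φ) := by
    rw [hy, hy', Finset.sum_mul_sum]
    calc ∑ i, ∑ k, (Y i : AdjoinRoot Φ) * χ (-i) * ((Y k : AdjoinRoot Φ) * χ k)
        = ∑ i, ∑ b, ((Y i : AdjoinRoot Φ) * (Y (i + b) : AdjoinRoot Φ)) * χ b := by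
          refine Finset.sum_congr rfl fun i _ => ?_
          rw [← Equiv.sum_comp (Equiv.addLeft i)]
          refine Finset.sum_congr rfl fun b _ => ?_
          rw [Equiv.coe_addLeft]
          rw [show χ b = χ (-i) * χ (i + b) by rw [← hχ, neg_add_cancel_left]]
          ring
      _ = ∑ b, ((∑ i, Y i * Y (i + b) : ℤ) : AdjoinRoot Φ) * χ b := by
          rw [Finset.sum_comm]; push_cast; simp only [Finset.sum_mul]
      _ = (N : AdjoinRoot Φ) := by
          simp only [hE, Int.cast_add, add_mul, Finset.sum_add_distrib, hinvsum, zero_add]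
          rw [Finset.sum_eq_single 0]
          · simp [χ]
          · intro b _ hb; simp [hb]
          · simp
  -- the residue map and the conjugation
  let ε : AdjoinRoot Φ →+* ZMod 2 := AdjoinRoot.lift (Int.castRingHom (ZMod 2)) 1 (by
    simp [Φ]; rfl)
  have hεζ : ε ζ = 1 := AdjoinRoot.lift_root _
  let σ : AdjoinRoot Φ →+* AdjoinRoot Φ := AdjoinRoot.lift (AdjoinRoot.of Φ) (ζ ^ (m - 1)) (by
    simp only [Φ, eval₂_add, eval₂_X_pow, eval₂_one]
    rw [← pow_mul, mul_comm, pow_mul, hζh,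
      Odd.neg_one_pow (⟨h - 1, by omega⟩ : Odd (m - 1))]
    ring)
  have hσζ : σ ζ = ζ ^ (m - 1) := AdjoinRoot.lift_root _
  have hσy : σ y = y' := by
    rw [hy, hy', map_sum]
    refine Finset.sum_congr rfl fun a _ => ?_
    rw [map_mul, map_intCast]
    congr 1
    have h1 : χ a * χ (-a) = 1 := by rw [← hχ, add_neg_cancel]; simp [χ]
    have h2 : χ a * σ (χ a) = 1 := by
      simp only [χ, map_pow, hσζ]
      rw [← mul_pow, ← pow_succ', show m - 1 + 1 = m by omega, hζm, one_pow]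
    exact mul_left_cancel₀ (fun h0 => one_ne_zero (by rw [← h1, h0, zero_mul])) (h2.trans h1.symm)
  have hεσ : ∀ z, ε (σ z) = ε z := by
    intro z
    have : (ε.comp σ).toIntAlgHom = ε.toIntAlgHom := AdjoinRoot.algHom_ext (by
      change ε (σ ζ) = ε ζ
      rw [hσζ, map_pow, hεζ, one_pow])
    exact DFunLike.congr_fun this z
  set π : AdjoinRoot Φ := ζ - 1 with hπ
  have hεπ : ε π = 0 := by rw [hπ, map_sub, hεζ, map_one, sub_self]
  have h2π : π ∣ 2 := by
    refine ⟨-∑ i ∈ Finset.range h, ζ ^ i, ?_⟩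
    rw [mul_neg, hπ, mul_geom_sum, hζh]; ring
  have hker : ∀ z, ε z = 0 → π ∣ z := by
    intro z hz
    induction z using AdjoinRoot.induction_on with
    | ih P =>
      have h1 : π ∣ AdjoinRoot.mk Φ (P - C (P.eval 1)) := by
        have := map_dvd (AdjoinRoot.mk Φ) (X_sub_C_dvd_sub_C_eval (a := (1 : ℤ)) (p := P))
        rwa [map_sub, map_sub, AdjoinRoot.mk_X, C_1, map_one, ← map_sub (AdjoinRoot.mk Φ)] at this
      have h2 : (2 : ℤ) ∣ P.eval 1 := by
        rw [show (2 : ℤ) = ((2 : ℕ) : ℤ) from rfl, ← ZMod.intCast_zmod_eq_zero_iff_dvd]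
        rw [AdjoinRoot.lift_mk] at hz
        rw [← hz]
        conv_rhs => rw [show (1 : ZMod 2) = Int.castRingHom (ZMod 2) 1 by simp, eval₂_hom]
        rfl
      obtain ⟨c, hc⟩ := h2
      have h3 : π ∣ AdjoinRoot.mk Φ (C (P.eval 1)) := by
        rw [hc, map_mul, map_mul, map_ofNat, map_ofNat]
        exact h2π.mul_right _
      simpa using dvd_add h1 h3
  obtain ⟨e, he, hεe⟩ : ∃ e, π ^ h = 2 * e ∧ ε e = 1 := by
    have hd : C (2 : ℤ) ∣ (X - 1) ^ h - Φ := by
      rw [C_dvd_iff_dvd_coeff]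
      intro i
      rw [show (2 : ℤ) = ((2 : ℕ) : ℤ) from rfl, ← ZMod.intCast_zmod_eq_zero_iff_dvd]
      have h1 : ((X - 1) ^ h - Φ).map (Int.castRingHom (ZMod 2)) = 0 := by
        simp only [Φ, Polynomial.map_sub, Polynomial.map_pow, Polynomial.map_add, map_X,
          Polynomial.map_one, hh]
        rw [sub_pow_char_pow, one_pow]
        have : (2 : (ZMod 2)[X]) = 0 := by
          rw [← Nat.cast_ofNat (R := (ZMod 2)[X]), CharP.cast_eq_zero]
        linear_combination -this
      have h2 := congrArg (fun P => coeff P i) h1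
      simp only [coeff_map, coeff_zero, eq_intCast] at h2
      exact h2
    obtain ⟨G, hG⟩ := hd
    have hG1 := congrArg (eval 1) hG
    simp only [Φ, eval_sub, eval_pow, eval_X, eval_one, eval_add, eval_mul, eval_C, sub_self,
      zero_pow hhpos.ne', one_pow] at hG1
    refine ⟨AdjoinRoot.mk Φ G, ?_, ?_⟩
    · have := congrArg (AdjoinRoot.mk Φ) hG
      rw [map_sub, AdjoinRoot.mk_self, sub_zero, map_pow, map_sub, AdjoinRoot.mk_X, map_one,
        map_mul] at this
      rw [hπ, this, map_ofNat C 2, map_ofNat]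
    · rw [AdjoinRoot.lift_mk, show (1 : ZMod 2) = Int.castRingHom (ZMod 2) 1 by simp, eval₂_hom,
        show G.eval 1 = -1 by omega]
      decide
  obtain ⟨v, hv, hεv⟩ : ∃ v, σ π = π * v ∧ ε v = 1 := by
    refine ⟨∑ i ∈ Finset.range (m - 1), ζ ^ i, ?_, ?_⟩
    · rw [hπ, mul_geom_sum, map_sub, hσζ, map_one]
    · simp only [map_sum, map_pow, hεζ, one_pow, Finset.sum_const, Finset.card_range, nsmul_one]
      rw [show m - 1 = 2 * (h - 1) + 1 by omega, Nat.cast_add, Nat.cast_mul,
        show ((2 : ℕ) : ZMod 2) = 0 from rfl, zero_mul, zero_add, Nat.cast_one]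
  have hπ0 : π ≠ 0 := by
    intro h0
    rw [h0, zero_pow hhpos.ne'] at he
    rcases mul_eq_zero.1 he.symm with h1 | h1
    · exact two_ne_zero h1
    · rw [h1, map_zero] at hεe; exact zero_ne_one hεe
  -- the descent
  obtain ⟨N', rfl⟩ := h4
  have hdiv : ∀ i, i ≤ h → π ^ i ∣ y := by
    intro i
    induction i with
    | zero => intro _; simp
    | succ i ih =>
      intro hi
      obtain ⟨u, hu⟩ := ih (by omega)
      have h1 : π ^ (2 * i) * (e ^ 2 * v ^ i * σ u * u) =
          π ^ (2 * i) * (π ^ (2 * (h - i)) * (N' : AdjoinRoot Φ)) := by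
        rw [← hσy, hu, map_mul, map_pow, hv, mul_pow] at hprod
        push_cast at hprod
        rw [← mul_assoc (π ^ (2 * i)) (π ^ (2 * (h - i))), ← pow_add,
          show 2 * i + 2 * (h - i) = h + h by omega, pow_add, he,
          show 2 * i = i + i by ring, pow_add]
        linear_combination e ^ 2 * hprod
      have h2 := congrArg ε (mul_left_cancel₀ (pow_ne_zero _ hπ0) h1)
      simp only [map_mul, map_pow, hεe, hεv, hεσ, hεπ, one_pow, one_mul,
        zero_pow (show 2 * (h - i) ≠ 0 by omega), zero_mul, mul_self_eq_zero] at h2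
      obtain ⟨w, rfl⟩ := hker u h2
      exact ⟨w, by rw [hu, pow_succ]; ring⟩
  obtain ⟨u, hu⟩ := hdiv h le_rfl
  -- coefficients
  let W : ℤ[X] := ∑ i ∈ Finset.range h, C (Y (i : ℕ) - Y ((h + i : ℕ) : ZMod m)) * X ^ i
  have hyW : y = AdjoinRoot.mk Φ W := by
    have h1 : y = ∑ i ∈ Finset.range m, (Y (i : ℕ) : AdjoinRoot Φ) * ζ ^ i := by
      rw [hy]
      refine (Finset.sum_nbij' (fun i => ((i : ℕ) : ZMod m)) ZMod.val (fun i _ => Finset.mem_univ _)
        (fun a _ => Finset.mem_range.2 (ZMod.val_lt a)) (fun i hi => ?_) (fun a _ => ?_)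
        fun i hi => ?_).symm
      · rw [ZMod.val_natCast, Nat.mod_eq_of_lt (Finset.mem_range.1 hi)]
      · exact ZMod.natCast_zmod_val a
      · simp only [χ]
        rw [ZMod.val_natCast, Nat.mod_eq_of_lt (Finset.mem_range.1 hi)]
    have h2 : ∀ i, i ∈ Finset.range (h + h) ↔ i ∈ Finset.range m := by rw [hmh]; simp
    rw [h1, ← Finset.ext h2, Finset.sum_range_add, map_sum, ← Finset.sum_add_distrib]
    refine Finset.sum_congr rfl fun i _ => ?_
    rw [map_mul, map_pow, AdjoinRoot.mk_X, AdjoinRoot.mk_C, eq_intCast, pow_add, hζh]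
    push_cast
    ring
  obtain ⟨R, hR⟩ := AdjoinRoot.mk_surjective (e * u)
  have hWR : AdjoinRoot.mk Φ (W - C 2 * (R %ₘ Φ)) = 0 := by
    rw [map_sub, ← hyW, map_mul, AdjoinRoot.mk_C, map_ofNat,
      show AdjoinRoot.mk Φ (R %ₘ Φ) = AdjoinRoot.mk Φ R by
        conv_rhs => rw [← modByMonic_add_div R Φ, map_add, map_mul, AdjoinRoot.mk_self, zero_mul,
          add_zero],
      hR, hu, he]
    ring
  rw [AdjoinRoot.mk_eq_zero] at hWR
  have hdeg : (W - C 2 * (R %ₘ Φ)).degree < Φ.degree := by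
    refine (degree_sub_le _ _).trans_lt (max_lt ?_ ?_)
    · rw [degree_eq_natDegree hΦm.ne_zero, hΦd]
      exact (degree_sum_le _ _).trans_lt ((Finset.sup_lt_iff (WithBot.bot_lt_coe h)).2 fun i hi =>
        (degree_C_mul_X_pow_le i _).trans_lt (WithBot.coe_lt_coe.2 (Finset.mem_range.1 hi)))
    · exact (degree_C_mul two_ne_zero).trans_lt (degree_modByMonic_lt R hΦm)
  have hW := sub_eq_zero.1 (eq_zero_of_dvd_of_degree_lt hWR hdeg)
  have hW0 : W = 0 := by
    ext i
    rw [coeff_zero]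
    have h1 : (2 : ℤ) ∣ W.coeff i := by rw [hW, coeff_C_mul]; exact dvd_mul_right _ _
    have h2 : W.coeff i = if i < h then Y (i : ℕ) - Y ((h + i : ℕ) : ZMod m) else 0 := by
      simp only [W, finsetSum_coeff, coeff_C_mul_X_pow, Finset.sum_ite_eq, Finset.sum_ite_eq', Finset.mem_range]
    rw [h2] at h1 ⊢
    split_ifs at h1 ⊢ with hi
    · rcases hY (i : ℕ) with a | a <;> rcases hY ((h + i : ℕ) : ZMod m) with b | b <;>
        rw [a, b] at h1 ⊢ <;> omega
    · rfl
  rw [hW0, map_zero] at hyW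
  rw [hyW, mul_zero, eq_comm] at hprod
  exact hN (hcast (by rw [Int.cast_zero]; exact hprod))

end Cfsg.Agent.H28.DihedralSRing
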