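import Mathlib
import Cfsg.Agent.H28.DihedralSRing.Multiplier

/-!
# Fibres of multiplication by an odd prime in a rational dihedral S-ring
-/

set_option autoImplicit false

namespace Cfsg.Agent.H28.DihedralSRing

open MonoidAlgebra

open scoped Classical

variable {m : ℕ} [NeZero m] {p : ℕ} [hp : Fact p.Prime]

theorem addOrderOf_nsmul_dvd' {i : ZMod m} (n : ℕ) : addOrderOf (n • i) ∣ addOrderOf i :=
  addOrderOf_dvd_of_nsmul_eq_zero (by rw [smul_comm, addOrderOf_nsmul_eq_zero, smul_zero])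

theorem idem_pow {A : Type*} [Monoid A] {x : A} (hx : IsIdempotentElem x) {N : ℕ} (hN : N ≠ 0) :
    x ^ N = x := by
  obtain ⟨j, rfl⟩ := Nat.exists_eq_succ_of_ne_zero hN
  exact hx.pow_succ_eq j

/-- Order prime to `p`. -/
def PPrime (p : ℕ) (i : ZMod m) : Prop := ¬ p ∣ addOrderOf i

theorem pPrime_zero : PPrime (m := m) p 0 := by
  simp [PPrime, hp.out.ne_one]

theorem PPrime.add {i j : ZMod m} (hi : PPrime p i) (hj : PPrime p j) : PPrime p (i + j) :=
  fun h => by
    have := h.trans ((AddCommute.all i j).addOrderOf_add_dvd_lcm)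
    rcases hp.out.dvd_mul.1 (this.trans (Nat.lcm_dvd_mul _ _)) with h' | h'
    · exact hi h'
    · exact hj h'

theorem PPrime.of_nsmul_ne {i : ZMod m} (h : ¬ PPrime p (p • i)) : ¬ PPrime p i := fun hi =>
  h fun hd => hi (hd.trans (addOrderOf_nsmul_dvd' _))

theorem PPrime.addOrderOf_nsmul {i : ZMod m} (hi : PPrime p i) :
    addOrderOf (p • i) = addOrderOf i :=
  Nat.Coprime.addOrderOf_nsmul ((Nat.Prime.coprime_iff_not_dvd hp.out).2 hi).symm

theorem PPrime.eq_of_nsmul_eq {i j : ZMod m} (hi : PPrime p i) (hj : PPrime p j)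
    (h : p • i = p • j) : i = j := by
  have h0 : p • (i + -j) = 0 := by rw [nsmul_add, smul_neg, h, add_neg_cancel]
  have hd := addOrderOf_dvd_of_nsmul_eq_zero h0
  rcases (Nat.dvd_prime hp.out).1 hd with h1 | h1
  · rw [AddMonoid.addOrderOf_eq_one_iff, add_neg_eq_zero] at h1
    exact h1
  · exact absurd (h1 ▸ dvd_rfl : p ∣ addOrderOf (i + -j))
      (hi.add (fun hd' => hj (addOrderOf_neg j ▸ hd')))

theorem PPrime.exists_nsmul_eq {g : ZMod m} (hg : PPrime p g) :
    ∃ x : ZMod m, PPrime p x ∧ p • x = g := by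
  have hcop : Nat.Coprime (addOrderOf g) p := ((Nat.Prime.coprime_iff_not_dvd hp.out).2 hg).symm
  obtain ⟨x, hx⟩ := exists_nsmul_eq_self_of_coprime hcop.symm
  refine ⟨x • g, fun hd => hg (hd.trans (addOrderOf_nsmul_dvd' _)), ?_⟩
  rw [← mul_nsmul, mul_comm, mul_nsmul]
  exact hx

theorem addOrderOf_eq_of_not_pPrime {i j : ZMod m} (hi : ¬ PPrime p i) (hj : ¬ PPrime p j)
    (h : p • i = p • j) : addOrderOf i = addOrderOf j := by
  simp only [PPrime, not_not] at hi hj
  have e : ∀ {k : ZMod m}, p ∣ addOrderOf k → addOrderOf (p • k) = addOrderOf k / p := fun {k} hk => by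
    rw [addOrderOf_nsmul' _ hp.out.ne_zero, Nat.gcd_eq_right hk]
  have := (e hi).symm.trans ((congrArg addOrderOf h).trans (e hj))
  rw [← Nat.div_mul_cancel hi, this, Nat.div_mul_cancel hj]

theorem pow_nsmul_pPrime (i : ZMod m) {k : ℕ} (hk : m ≤ p ^ k) : PPrime p (p ^ k • i) := by
  intro h
  rw [addOrderOf_nsmul'] at h
  swap
  · exact pow_ne_zero _ hp.out.ne_zero
  have hpos : 0 < addOrderOf i := addOrderOf_pos i
  have hle : addOrderOf i ≤ m := addOrderOf_le_card_univ.trans_eq (ZMod.card m)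
  obtain ⟨a, -, ha⟩ := (Nat.dvd_prime_pow hp.out).1 (Nat.gcd_dvd_right (addOrderOf i) (p ^ k))
  rw [ha] at h
  have hg : p ^ a ∣ addOrderOf i := ha ▸ Nat.gcd_dvd_left _ _
  have h2 : p ^ (a + 1) ∣ addOrderOf i := by
    rw [pow_succ]
    exact Nat.mul_dvd_of_dvd_div hg h
  have hak : a + 1 ≤ k := by
    by_contra hcon
    have := (Nat.pow_le_pow_right hp.out.pos (show k + 1 ≤ a + 1 by omega)).trans
      (Nat.le_of_dvd hpos h2)
    have h3 : p ^ k < p ^ (k + 1) := Nat.pow_lt_pow_right hp.out.one_lt (by omega)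
    omega
  have h4 : p ^ (a + 1) ∣ p ^ a :=
    ha ▸ Nat.dvd_gcd h2 (pow_dvd_pow _ hak)
  exact absurd ((Nat.pow_dvd_pow_iff_le_right hp.out.one_lt).1 h4) (by omega)

theorem dvd_of_cast_eq_zero {n : ℕ} (hn : 1 ≤ n) {c : ZMod (p ^ n)}
    (h : ZMod.castHom (dvd_pow_self p (by omega : n ≠ 0)) (ZMod p) c = 0) :
    ∃ d : ZMod (p ^ n), c = p • d := by
  rw [← ZMod.natCast_zmod_val c, map_natCast, ZMod.natCast_eq_zero_iff] at h
  obtain ⟨d, hd⟩ := h
  exact ⟨d, by rw [nsmul_eq_mul, ← Nat.cast_mul, ← hd, ZMod.natCast_zmod_val]⟩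

variable {R : Type*} [CommRing R]

/-- Supported on the `p'`-rotations, as far as the rotation part goes. -/
def KSupp (p : ℕ) (f : MonoidAlgebra R (DihedralGroup m)) : Prop :=
  ∀ i, ¬ PPrime p i → f.coeff (.r i) = 0

/-- The `p'`-supported elements of the rotation algebra. -/
noncomputable def kRing (p : ℕ) [Fact p.Prime] (m : ℕ) [NeZero m] (R : Type*) [CommRing R] :
    Subring (MonoidAlgebra R (Multiplicative (ZMod m))) where
  carrier := {f | ∀ i : ZMod m, ¬ PPrime p i → f.coeff (Multiplicative.ofAdd i) = 0}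
  zero_mem' := by simp
  add_mem' {f g} hf hg i hi := by simp [hf i hi, hg i hi]
  neg_mem' {f} hf i hi := by simp [hf i hi]
  one_mem' i hi := by
    rw [MonoidAlgebra.one_def, coeff_single, Finsupp.single_apply, if_neg]
    intro h
    exact hi ((ofAdd_eq_one.1 h.symm).symm ▸ pPrime_zero)
  mul_mem' {f g} hf hg i hi := by
    rw [coeff_mul_apply_left, Finsupp.sum]
    refine Finset.sum_eq_zero fun a _ => ?_
    by_cases ha : PPrime p a.toAdd
    · have : ¬ PPrime p (-a.toAdd + i) := fun h => hi (by simpa using ha.add h)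
      rw [show a⁻¹ * Multiplicative.ofAdd i = Multiplicative.ofAdd (-a.toAdd + i) from rfl,
        hg _ this, mul_zero]
    · rw [show f.coeff a = 0 from hf _ ha, zero_mul]

/-- An element of the rotation algebra with `u ^ 3 = u` is `p'`-supported. -/
theorem mem_kRing_of_cube {n : ℕ} (hn : 1 ≤ n) (hp2 : p ≠ 2)
    {u : MonoidAlgebra (ZMod (p ^ n)) (Multiplicative (ZMod m))} (hu : u ^ 3 = u) :
    u ∈ kRing p m (ZMod (p ^ n)) := by
  let c := ZMod.castHom (dvd_pow_self p (by omega : n ≠ 0)) (ZMod p)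
  have hodd : ∀ k, u ^ (2 * k + 1) = u := by
    intro k
    induction k with
    | zero => simp
    | succ k ih => rw [show 2 * (k + 1) + 1 = (2 * k + 1) + 2 by ring, pow_add, ih, ← pow_succ', hu]
  have hpow : ∀ j, u ^ p ^ j = u := fun j => by
    obtain ⟨k, hk⟩ := (hp.out.odd_of_ne_two hp2).pow (n := j)
    rw [hk, hodd]
  haveI : CharP (MonoidAlgebra (ZMod p) (Multiplicative (ZMod m))) p :=
    charP_of_injective_ringHom (f := MonoidAlgebra.singleOneRingHom)
      MonoidAlgebra.single_right_injective p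
  haveI : ExpChar (MonoidAlgebra (ZMod p) (Multiplicative (ZMod m))) p := ExpChar.prime hp.out
  let red := MonoidAlgebra.mapRingHom (Multiplicative (ZMod m)) c
  have hred : red u = ofFnC fun i => c (u.coeff (Multiplicative.ofAdd i)) := by
    ext a
    induction a using Multiplicative.rec with
    | ofAdd a => rw [coeff_ofFnC, coeff_mapRingHom]
  have hk : red u ∈ kRing p m (ZMod p) := by
    obtain ⟨k, hk⟩ : ∃ k, m ≤ p ^ k := ⟨m, (Nat.lt_pow_self hp.out.one_lt).le⟩
    rw [← hpow k, map_pow, hred, ofFnC, sum_pow_char_pow]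
    refine Subring.sum_mem _ fun i _ => ?_
    intro j hj
    rw [single_pow, coeff_single, Finsupp.single_apply, if_neg]
    intro h
    rw [← ofAdd_nsmul, Multiplicative.ofAdd.injective.eq_iff] at h
    exact hj (h ▸ pow_nsmul_pPrime i hk)
  have hdiv : ∀ i : ZMod m, ∃ d : ZMod (p ^ n),
      ¬ PPrime p i → u.coeff (Multiplicative.ofAdd i) = p • d := by
    intro i
    by_cases hi : PPrime p i
    · exact ⟨0, fun h => absurd hi h⟩
    · obtain ⟨d, hd⟩ := dvd_of_cast_eq_zero hn (c := u.coeff (Multiplicative.ofAdd i))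
        (by have := hk i hi; rwa [coeff_mapRingHom] at this)
      exact ⟨d, fun _ => hd⟩
  choose d hd using hdiv
  let η := ofFnC fun i => if PPrime p i then u.coeff (Multiplicative.ofAdd i) else 0
  let δ := ofFnC fun i => if PPrime p i then 0 else d i
  have hη : η ∈ kRing p m (ZMod (p ^ n)) := fun i hi => by rw [coeff_ofFnC, if_neg hi]
  have hsub : (p : MonoidAlgebra (ZMod (p ^ n)) (Multiplicative (ZMod m))) ∣ u - η := by
    refine ⟨δ, ?_⟩
    rw [← nsmul_eq_mul]
    ext a
    induction a using Multiplicative.rec with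
    | ofAdd a =>
      rw [coeff_sub, Finsupp.sub_apply, coeff_ofFnC, coeff_smul, Finsupp.smul_apply, coeff_ofFnC]
      by_cases ha : PPrime p a
      · simp [ha]
      · rw [if_neg ha, if_neg ha, sub_zero, hd a ha]
  have hzero : (p : MonoidAlgebra (ZMod (p ^ n)) (Multiplicative (ZMod m))) ^ (n + 1) = 0 := by
    rw [← map_natCast (MonoidAlgebra.singleOneRingHom
      (R := ZMod (p ^ n)) (M := Multiplicative (ZMod m))) p, ← map_pow, pow_succ, ← Nat.cast_pow,
      ZMod.natCast_self, zero_mul, map_zero]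
  have h := dvd_sub_pow_of_dvd_sub hsub n
  rw [hzero, zero_dvd_iff, sub_eq_zero, hpow] at h
  rw [h]
  exact Subring.pow_mem _ hη _

variable {S : Scheme m}

/-- Idempotents are `p'`-supported. -/
theorem kSupp_of_idempotent {n : ℕ} (hn : 1 ≤ n) (hp2 : p ≠ 2)
    {e : MonoidAlgebra (ZMod (p ^ n)) (DihedralGroup m)} (he : e ∈ S.alg (ZMod (p ^ n)))
    (hidem : IsIdempotentElem e) : KSupp p e := by
  set x := cPart e with hx
  set z := tPart e with hz
  have hxz : x * z = z * x := commute_parts fun i => Scheme.coeff_r_neg he i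
  have hxe : e = x + z := by rw [hx, hz, tPart, add_sub_cancel]
  have h0 : x * x + z * z - x = z - 2 * (x * z) := by
    have h1 : (x + z) * (x + z) = x + z := by rw [← hxe]; exact hidem
    linear_combination (norm := noncomm_ring) h1 + hxz
  have hC : IsC (x * x + z * z - x) := fun i => by
    simp [((isC_cPart e).mul (isC_cPart e)) i, ((isT_tPart e).mul (isT_tPart e)) i,
      isC_cPart e i, hx, hz]
  have hT : IsT (z - 2 * (x * z)) := fun i => by
    simp [((isC_cPart e).mul_isT (isT_tPart e)) i, isT_tPart e i, hx, hz, two_mul]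
  have e1 : x * x + z * z - x = 0 := by
    ext a
    rcases a with a | a
    · rw [h0, hT a]; rfl
    · rw [hC a]; rfl
  have e2 : z - 2 * (x * z) = 0 := h0 ▸ e1
  have h3 : (2 * x - 1) * (x - x * x) = 0 := by
    have h4 : (2 * x - 1) * (z * z) = 0 := by
      rw [← mul_assoc, show (2 * x - 1) * z = -(z - 2 * (x * z)) by noncomm_ring, e2, neg_zero,
        zero_mul]
    rw [← h4]
    congr 1
    linear_combination (norm := noncomm_ring) -e1
  have h5 : (2 * x - 1) ^ 3 = 2 * x - 1 := by
    linear_combination (norm := noncomm_ring) (-4 : ℤ) • h3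
  set u := 2 * (ofFnC fun i => e.coeff (.r i)) - 1 with hu
  have hincl : incl m _ u = 2 * x - 1 := by
    rw [hu, map_sub, map_mul, map_one, map_ofNat]; rfl
  have hu3 : u ^ 3 = u := incl_injective (by rw [map_pow, hincl, h5])
  intro i hi
  have h6 := mem_kRing_of_cube hn hp2 hu3 i hi
  have hi0 : Multiplicative.ofAdd i ≠ 1 := fun h =>
    hi ((ofAdd_eq_one.1 h).symm ▸ pPrime_zero)
  rw [hu, coeff_sub, Finsupp.sub_apply, two_mul, coeff_add, Finsupp.add_apply, coeff_ofFnC,
    MonoidAlgebra.one_def, coeff_single, Finsupp.single_apply, if_neg (Ne.symm hi0), sub_zero,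
    ← two_mul] at h6
  have h2 : IsUnit ((2 : ℕ) : ZMod (p ^ n)) :=
    (ZMod.isUnit_iff_coprime 2 _).2
      (Nat.Coprime.pow_right _ ((Nat.coprime_primes Nat.prime_two hp.out).2 (Ne.symm hp2)))
  rw [Nat.cast_ofNat] at h2
  exact h2.mul_right_eq_zero.1 h6

/-- A `p'`-supported element over the prime field is fixed by the `p`-th power. -/
theorem pow_eq_self (hrat : S.IsRational) (hp2 : p ≠ 2)
    {f : MonoidAlgebra (ZMod p) (DihedralGroup m)} (hf : f ∈ S.alg (ZMod p)) (hk : KSupp p f) :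
    f ^ p = f := by
  refine Scheme.ext_r ((S.alg _).pow_mem hf p) hf fun g => ?_
  rw [coeff_pow_r hp2 (fun i => Scheme.coeff_r_neg hf i)]
  by_cases hg : PPrime p g
  · obtain ⟨x, hx, rfl⟩ := hg.exists_nsmul_eq
    rw [Finset.sum_eq_single x]
    · exact hf _ _ (hrat _ _ hx.addOrderOf_nsmul.symm)
    · intro b hb hbx
      exact hk b fun hb' => hbx (hb'.eq_of_nsmul_eq hx (Finset.mem_filter.1 hb).2)
    · intro h; exact absurd (by simp) h
  · rw [hk g hg]
    refine Finset.sum_eq_zero fun b hb => hk b (PPrime.of_nsmul_ne ?_)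
    rwa [(Finset.mem_filter.1 hb).2]

/-- The idempotent span. -/
noncomputable def idemSpan (S : Scheme m) (R : Type*) [CommRing R] :
    AddSubgroup (MonoidAlgebra R (DihedralGroup m)) :=
  AddSubgroup.closure {e | e ∈ S.alg R ∧ IsIdempotentElem e}

theorem idemSpan_mem {f : MonoidAlgebra R (DihedralGroup m)} (hf : f ∈ idemSpan S R) :
    f ∈ S.alg R := by
  have h : idemSpan S R ≤ (S.alg R).toAddSubgroup :=
    (AddSubgroup.closure_le _).2 fun e he => he.1
  exact h hf

theorem idemSpan_kSupp {n : ℕ} (hn : 1 ≤ n) (hp2 : p ≠ 2)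
    {f : MonoidAlgebra (ZMod (p ^ n)) (DihedralGroup m)} (hf : f ∈ idemSpan S (ZMod (p ^ n))) :
    KSupp p f := by
  induction hf using AddSubgroup.closure_induction with
  | mem x hx => exact kSupp_of_idempotent hn hp2 hx.1 hx.2
  | zero => intro i _; simp
  | add x y _ _ hx hy => intro i hi; simp [hx i hi, hy i hi]
  | neg x _ hx => intro i hi; simp [hx i hi]

theorem idemSpan_mul {f g : MonoidAlgebra R (DihedralGroup m)} (hf : f ∈ idemSpan S R)
    (hg : g ∈ idemSpan S R) : f * g ∈ idemSpan S R := by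
  induction hf using AddSubgroup.closure_induction with
  | mem x hx =>
    induction hg using AddSubgroup.closure_induction with
    | mem y hy =>
      exact AddSubgroup.subset_closure ⟨(S.alg R).mul_mem hx.1 hy.1,
        IsIdempotentElem.mul_of_commute (Scheme.mul_comm_of_mem hx.1 hy.1) hx.2 hy.2⟩
    | zero => rw [mul_zero]; exact zero_mem _
    | add y z _ _ hy hz => rw [mul_add]; exact add_mem hy hz
    | neg y _ hy => rw [mul_neg]; exact neg_mem hy
  | zero => rw [zero_mul]; exact zero_mem _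
  | add x y _ _ hx hy => rw [add_mul]; exact add_mem hx hy
  | neg x _ hx => rw [neg_mul]; exact neg_mem hx

open Polynomial in
theorem aeval_interpolation {A : Type*} [Ring A] [Algebra (ZMod p) A] {a : A} (ha : a ^ p = a) :
    a = ∑ c ∈ Finset.range p, c • (1 - (a - (c : A)) ^ (p - 1)) := by
  let P : (ZMod p)[X] := X - ∑ c ∈ Finset.range p, c • (1 - (X - (c : (ZMod p)[X])) ^ (p - 1))
  have heval : ∀ b : ZMod p, P.IsRoot b := by
    intro b
    simp only [P, Polynomial.IsRoot, eval_sub, eval_X, eval_finsetSum, nsmul_eq_mul, eval_mul,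
      eval_natCast, eval_one, eval_pow]
    rw [Finset.sum_eq_single b.val]
    · simp [zero_pow (Nat.sub_ne_zero_of_lt hp.out.one_lt)]
    · intro c hc hne
      have : b - (c : ZMod p) ≠ 0 := fun h => hne (by
        rw [sub_eq_zero.1 h, ZMod.val_natCast, Nat.mod_eq_of_lt (Finset.mem_range.1 hc)])
      rw [ZMod.pow_card_sub_one_eq_one this]; simp
    · intro h; exact absurd (Finset.mem_range.2 (ZMod.val_lt b)) h
  have hdvd : (X ^ p - X : (ZMod p)[X]) ∣ P := by
    have hm : (X ^ p - X : (ZMod p)[X]).Monic :=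
      monic_X_pow_sub (degree_X_le.trans_lt (by exact_mod_cast hp.out.one_lt))
    have hroots : (X ^ p - X : (ZMod p)[X]).roots = Finset.univ.val := by
      have := FiniteField.roots_X_pow_card_sub_X (ZMod p)
      rwa [ZMod.card] at this
    have heq := prod_multiset_X_sub_C_of_monic_of_roots_card_eq hm (by
      rw [hroots, FiniteField.X_pow_card_sub_X_natDegree_eq (ZMod p) hp.out.one_lt]
      simp)
    rw [← heq, hroots]
    exact Finset.prod_dvd_of_coprime ((pairwise_coprime_X_sub_C Function.injective_id).set_pairwise _)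
      fun b _ => dvd_iff_isRoot.2 (heval b)
  obtain ⟨Q, hQ⟩ := hdvd
  have h := congrArg (Polynomial.aeval a) hQ
  simp only [P, map_sub, aeval_X, map_sum, map_nsmul, map_one, map_pow, map_natCast, map_mul, ha,
    sub_self, zero_mul] at h
  exact sub_eq_zero.1 h

/-- One step of the decomposition of a `p'`-supported element. -/
theorem exists_step (hrat : S.IsRational) (hp2 : p ≠ 2) {n : ℕ} (hn : 1 ≤ n)
    {f : MonoidAlgebra (ZMod (p ^ n)) (DihedralGroup m)} (hf : f ∈ S.alg (ZMod (p ^ n)))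
    (hk : KSupp p f) :
    ∃ q ∈ idemSpan S (ZMod (p ^ n)), ∃ g ∈ S.alg (ZMod (p ^ n)), KSupp p g ∧ f = q + p • g := by
  let c := ZMod.castHom (dvd_pow_self p (by omega : n ≠ 0)) (ZMod p)
  let Red := MonoidAlgebra.mapRingHom (DihedralGroup m) c
  have hRed : ∀ {g}, g ∈ S.alg (ZMod (p ^ n)) → Red g ∈ S.alg (ZMod p) := fun {g} hg x y h => by
    rw [coeff_mapRingHom, coeff_mapRingHom, hg x y h]
  have hdiv : ∀ {g}, g ∈ S.alg (ZMod (p ^ n)) → Red g = 0 →
      ∃ g' ∈ S.alg (ZMod (p ^ n)), g = p • g' := by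
    intro g hg h0
    have hd : ∀ v : ZMod (p ^ n), ∃ d, c v = 0 → v = p • d := fun v => by
      by_cases hv : c v = 0
      · exact (dvd_of_cast_eq_zero hn hv).imp fun d hd _ => hd
      · exact ⟨0, fun h => absurd h hv⟩
    choose dv hdv using hd
    refine ⟨ofFn fun x => dv (g.coeff x), fun x y h => ?_, ?_⟩
    · rw [coeff_ofFn, coeff_ofFn, hg x y h]
    · ext x
      rw [coeff_smul, Finsupp.smul_apply, coeff_ofFn]
      refine hdv _ ?_
      rw [← coeff_mapRingHom c g x]
      change (Red g).coeff x = 0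
      rw [h0]; rfl
  haveI : CharP (MonoidAlgebra (ZMod p) (DihedralGroup m)) p :=
    charP_of_injective_ringHom (f := MonoidAlgebra.singleOneRingHom)
      MonoidAlgebra.single_right_injective p
  haveI : ExpChar (MonoidAlgebra (ZMod p) (DihedralGroup m)) p := ExpChar.prime hp.out
  have hfix : Red f ^ p = Red f := pow_eq_self hrat hp2 (hRed hf)
    fun i hi => by rw [coeff_mapRingHom, hk i hi, map_zero]
  let F : S.alg (ZMod (p ^ n)) := ⟨f, hf⟩
  let b : ℕ → S.alg (ZMod (p ^ n)) := fun k => 1 - (F - (k : S.alg (ZMod (p ^ n)))) ^ (p - 1)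
  have hbar : ∀ k, Red (b k : MonoidAlgebra _ _) = 1 - (Red f - (k : MonoidAlgebra _ _)) ^ (p - 1) :=
    fun k => by simp [b, F]
  have hbidem : ∀ k, IsIdempotentElem (Red (b k : MonoidAlgebra _ _)) := by
    intro k
    rw [hbar]
    refine IsIdempotentElem.one_sub ?_
    have hu : (Red f - (k : MonoidAlgebra (ZMod p) (DihedralGroup m))) ^ p =
        Red f - (k : MonoidAlgebra (ZMod p) (DihedralGroup m)) := by
      rw [sub_pow_char_of_commute p (Nat.cast_commute k _).symm, hfix,
        ← map_natCast (MonoidAlgebra.singleOneRingHom (R := ZMod p) (M := DihedralGroup m)) k,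
        ← map_pow, ZMod.pow_card]
    obtain ⟨j, hj⟩ : ∃ j, p = j + 2 := ⟨p - 2, by have := hp.out.two_le; omega⟩
    rw [IsIdempotentElem, ← pow_add, show p - 1 + (p - 1) = p + j by omega, pow_add, hu,
      ← pow_succ', show j + 1 = p - 1 by omega]
  let e : ℕ → MonoidAlgebra (ZMod (p ^ n)) (DihedralGroup m) := fun k => (b k : _) ^ p ^ n
  have he : ∀ k, IsIdempotentElem (e k) := by
    intro k
    have hmem : (b k * b k - b k : S.alg _).1 ∈ S.alg (ZMod (p ^ n)) := SetLike.coe_mem _
    obtain ⟨d, hd, hbd⟩ := hdiv hmem (by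
      push_cast
      rw [map_sub, map_mul, (hbidem k).eq, sub_self])
    have hdvd : (p : S.alg (ZMod (p ^ n))) ∣ b k * b k - b k :=
      ⟨⟨d, hd⟩, Subtype.ext (by push_cast; rw [← nsmul_eq_mul]; exact_mod_cast hbd)⟩
    have hzero : (p : S.alg (ZMod (p ^ n))) ^ (n + 1) = 0 := by
      refine Subtype.ext ?_
      push_cast
      rw [← map_natCast (MonoidAlgebra.singleOneRingHom
        (R := ZMod (p ^ n)) (M := DihedralGroup m)) p, ← map_pow, pow_succ, ← Nat.cast_pow,
        ZMod.natCast_self, zero_mul, map_zero]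
    have h := dvd_sub_pow_of_dvd_sub hdvd n
    rw [hzero, zero_dvd_iff, sub_eq_zero, mul_pow] at h
    exact congrArg Subtype.val h
  let q := ∑ k ∈ Finset.range p, k • e k
  have hq : q ∈ idemSpan S (ZMod (p ^ n)) := sum_mem fun k _ =>
    nsmul_mem (AddSubgroup.subset_closure (k := {e | e ∈ S.alg _ ∧ IsIdempotentElem e}) (show e k ∈ _ from ⟨(S.alg _).pow_mem (b k).2 _, he k⟩)) k
  have hqbar : Red (f - q) = 0 := by
    rw [map_sub, map_sum, sub_eq_zero]
    simp only [map_nsmul, e, map_pow]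
    refine (aeval_interpolation hfix).trans (Finset.sum_congr rfl fun k _ => ?_)
    rw [← hbar]
    rw [idem_pow (hbidem k) (pow_ne_zero n hp.out.ne_zero)]
  obtain ⟨g, hg, hgeq⟩ := hdiv ((S.alg _).sub_mem hf (idemSpan_mem hq)) hqbar
  let g' : MonoidAlgebra (ZMod (p ^ n)) (DihedralGroup m) :=
    ofFn fun x => if ∀ i, S.rel x (.r i) → PPrime p i then g.coeff x else 0
  have hg' : g' ∈ S.alg (ZMod (p ^ n)) := fun x y h => by
    simp only [g', coeff_ofFn, hg x y h]
    exact if_congr ⟨fun h1 i hi => h1 i (S.equiv.trans h hi),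
      fun h1 i hi => h1 i (S.equiv.trans (S.equiv.symm h) hi)⟩ rfl rfl
  refine ⟨q, hq, g', hg', fun i hi => ?_, ?_⟩
  · simp only [g', coeff_ofFn]
    rw [if_neg fun h => hi (h i (S.equiv.refl _))]
  · rw [← sub_eq_iff_eq_add', hgeq]
    ext x
    rw [coeff_smul, coeff_smul, Finsupp.smul_apply, Finsupp.smul_apply, coeff_ofFn]
    split_ifs with hx
    · rfl
    · push Not at hx
      obtain ⟨i, hi, hiK⟩ := hx
      rw [smul_zero, hg x _ hi, ← Finsupp.smul_apply, ← coeff_smul, ← hgeq, coeff_sub,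
        Finsupp.sub_apply, hk i hiK, idemSpan_kSupp hn hp2 hq i hiK, sub_zero]

/-- The `p'`-supported elements form a subring. -/
theorem kSupp_mul (hrat : S.IsRational) (hp2 : p ≠ 2) {n : ℕ} (hn : 1 ≤ n)
    {f g : MonoidAlgebra (ZMod (p ^ n)) (DihedralGroup m)} (hf : f ∈ S.alg (ZMod (p ^ n)))
    (hg : g ∈ S.alg (ZMod (p ^ n))) (hkf : KSupp p f) (hkg : KSupp p g) : KSupp p (f * g) := by
  have key : ∀ k, ∀ f ∈ S.alg (ZMod (p ^ n)), KSupp p f →
      ∃ q ∈ idemSpan S (ZMod (p ^ n)), ∃ g ∈ S.alg (ZMod (p ^ n)), KSupp p g ∧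
        f = q + p ^ k • g := by
    intro k
    induction k with
    | zero => exact fun f hf hk => ⟨0, zero_mem _, f, hf, hk, by simp⟩
    | succ k ih =>
      intro f hf hk
      obtain ⟨q, hq, g, hg, hkg, rfl⟩ := ih f hf hk
      obtain ⟨q', hq', g', hg', hkg', rfl⟩ := exists_step hrat hp2 hn hg hkg
      exact ⟨q + p ^ k • q', add_mem hq (nsmul_mem hq' _), g', hg', hkg', by
        rw [nsmul_add, ← mul_nsmul', ← pow_succ, add_assoc]⟩
  have hall : ∀ f ∈ S.alg (ZMod (p ^ n)), KSupp p f → f ∈ idemSpan S (ZMod (p ^ n)) := by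
    intro f hf hk
    obtain ⟨q, hq, g, -, -, rfl⟩ := key n f hf hk
    have : p ^ n • g = 0 := by
      ext x
      rw [coeff_smul, Finsupp.smul_apply, nsmul_eq_mul, ZMod.natCast_self, zero_mul]
      rfl
    rwa [this, add_zero]
  exact idemSpan_kSupp hn hp2 (idemSpan_mul (hall f hf hkf) (hall g hg hkg))

/-- No basic set other than the identity has all its rotations of order prime to `p`. -/
theorem exists_rel_not_pPrime (hrat : S.IsRational) (hp2 : p ≠ 2) (hpm : p ∣ m)
    {x : DihedralGroup m} (hx : x ≠ 1) : ∃ i, S.rel x (.r i) ∧ ¬ PPrime p i := by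
  let n := Fintype.card (DihedralGroup m)
  have hn : 1 ≤ n := Fintype.card_pos
  let H : Subgroup (DihedralGroup m) :=
    { carrier := {x | ∀ i, S.rel x (.r i) → PPrime p i}
      one_mem' := fun i hi => by
        have := S.one_left _ hi
        rw [DihedralGroup.one_def] at this
        exact DihedralGroup.r.inj this ▸ pPrime_zero
      inv_mem' := fun {a} ha i hi => ha i (S.equiv.trans (S.inv a) hi)
      mul_mem' := fun {a b} ha hb i hi => by
        by_contra hiK
        have hk : ∀ {a}, (∀ j, S.rel a (.r j) → PPrime p j) →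
            KSupp p (S.ind (ZMod (p ^ n)) a) := fun ha j hj => by
          rw [S.coeff_ind, if_neg fun h => hj (ha j h)]
        have h := kSupp_mul hrat hp2 hn (S.ind_mem _ a) (S.ind_mem _ b) (hk ha) (hk hb) i hiK
        rw [← (S.alg _).mul_mem (S.ind_mem _ a) (S.ind_mem _ b) _ _ hi, S.coeff_ind_mul,
          ZMod.natCast_eq_zero_iff] at h
        have hlt : (Finset.univ.filter fun u => S.rel a u ∧ S.rel b (u⁻¹ * (a * b))).card < p ^ n :=
          lt_of_le_of_lt (Finset.card_le_univ _) (Nat.lt_pow_self hp.out.one_lt)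
        have hpos := Finset.card_pos.2
          ⟨a, (Finset.mem_filter.2 ⟨Finset.mem_univ _, S.equiv.refl a, by
            rw [inv_mul_cancel_left]; exact S.equiv.refl b⟩ :
            a ∈ Finset.univ.filter fun u => S.rel a u ∧ S.rel b (u⁻¹ * (a * b)))⟩
        exact absurd (Nat.le_of_dvd hpos h) (by omega) }
  have hinv : ∀ a b, S.rel a b → a ∈ H → b ∈ H := fun a b hab ha i hi =>
    ha i (S.equiv.trans hab hi)
  rcases S.prim H hinv with h | h
  · by_contra hcon
    push Not at hcon
    exact hx (Subgroup.mem_bot.1 (h ▸ (hcon : x ∈ H)))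
  · have hc : DihedralGroup.r ((m / p : ℕ) : ZMod m) ∈ H := h ▸ Subgroup.mem_top _
    refine absurd ?_ (hc _ (S.equiv.refl _))
    rw [ZMod.addOrderOf_coe _ (NeZero.ne m), Nat.gcd_eq_right (Nat.div_dvd_of_dvd hpm),
      Nat.div_div_self hpm (NeZero.ne m)]

/-- Elements of one fibre of multiplication by `p`, away from the kernel, are related. -/
theorem rel_of_nsmul_eq (hrat : S.IsRational) (hp2 : p ≠ 2) (hpm : p ∣ m) {i j : ZMod m}
    (hij : p • i = p • j) (h0 : p • i ≠ 0) : S.rel (.r i) (.r j) := by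
  suffices key : ∀ {x y : ZMod m}, PPrime p x → ¬ PPrime p y → p • x = p • y → p • x ≠ 0 →
      S.rel (.r x) (.r y) by
    by_cases hi : PPrime p i <;> by_cases hj : PPrime p j
    · rw [hi.eq_of_nsmul_eq hj hij]; exact S.equiv.refl _
    · exact key hi hj hij h0
    · exact S.equiv.symm (key hj hi hij.symm (hij ▸ h0))
    · exact hrat _ _ (addOrderOf_eq_of_not_pPrime hi hj hij)
  intro x y hx hy hxy hne
  by_contra hrel
  set f := S.ind (ZMod p) (.r x) with hf
  have hfm : f ∈ S.alg (ZMod p) := S.ind_mem _ _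
  have hker : (p : ℕ) ∣ (Finset.univ.filter fun c : ZMod m => p • c = 0).card := by
    let K : AddSubgroup (ZMod m) := (nsmulAddMonoidHom p).ker
    have hc : ((m / p : ℕ) : ZMod m) ∈ K := by
      change p • ((m / p : ℕ) : ZMod m) = 0
      rw [nsmul_eq_mul, ← Nat.cast_mul, Nat.mul_div_cancel' hpm, ZMod.natCast_self]
    have h1 : addOrderOf (⟨_, hc⟩ : K) = p := by
      rw [← AddSubgroup.addOrderOf_coe, ZMod.addOrderOf_coe _ (NeZero.ne m),
        Nat.gcd_eq_right (Nat.div_dvd_of_dvd hpm), Nat.div_div_self hpm (NeZero.ne m)]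
    have h2 := addOrderOf_dvd_natCard (G := K) ⟨_, hc⟩
    rw [h1] at h2
    convert h2 using 1
    rw [Nat.card_eq_fintype_card, Fintype.card_subtype]
    refine congrArg Finset.card (Finset.ext fun a => ?_)
    simp [K, AddMonoidHom.mem_ker, nsmulAddMonoidHom]
  have hk : KSupp p (f ^ p) := by
    intro g hg
    rw [coeff_pow_r hp2 (fun i => Scheme.coeff_r_neg hfm i)]
    rcases (Finset.univ.filter fun i : ZMod m => p • i = g).eq_empty_or_nonempty with he | ⟨b, hb⟩
    · rw [he, Finset.sum_empty]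
    have hb' := (Finset.mem_filter.1 hb).2
    have hconst : ∀ a ∈ Finset.univ.filter (fun i : ZMod m => p • i = g),
        f.coeff (.r a) = f.coeff (.r b) := by
      intro a ha
      have ha' := (Finset.mem_filter.1 ha).2
      refine hfm _ _ (hrat _ _ (addOrderOf_eq_of_not_pPrime (p := p) ?_ ?_ (ha'.trans hb'.symm)))
      · exact PPrime.of_nsmul_ne (ha' ▸ hg)
      · exact PPrime.of_nsmul_ne (hb' ▸ hg)
    rw [Finset.sum_congr rfl hconst, Finset.sum_const, nsmul_eq_mul]
    have hcard : (Finset.univ.filter fun i : ZMod m => p • i = g).card =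
        (Finset.univ.filter fun c : ZMod m => p • c = 0).card :=
      Finset.card_equiv (Equiv.addLeft (-b)) fun a => by
        simp only [Finset.mem_filter, Finset.mem_univ, true_and, Equiv.coe_addLeft, nsmul_add,
          smul_neg, hb', neg_add_eq_zero]
        exact eq_comm
    rw [hcard, (ZMod.natCast_eq_zero_iff _ _).2 hker, zero_mul]
  have hne1 : DihedralGroup.r (p • x) ≠ 1 := fun h => hne (DihedralGroup.r.inj h)
  obtain ⟨g, hg, hgK⟩ := exists_rel_not_pPrime hrat hp2 hpm hne1
  have h := hk g hgK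
  rw [← (S.alg _).pow_mem hfm p _ _ hg, coeff_pow_r hp2 (fun i => Scheme.coeff_r_neg hfm i),
    Finset.sum_eq_single x] at h
  · rw [hf, S.coeff_ind, if_pos (S.equiv.refl _)] at h
    exact one_ne_zero h
  · intro a ha hax
    have ha' := (Finset.mem_filter.1 ha).2
    rw [hf, S.coeff_ind, if_neg]
    intro hr
    have haK : ¬ PPrime p a := fun h => hax (h.eq_of_nsmul_eq hx ha')
    exact hrel (S.equiv.trans hr (hrat _ _
      (addOrderOf_eq_of_not_pPrime haK hy (ha'.trans hxy))))
  · intro h; exact absurd (by simp) h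

end Cfsg.Agent.H28.DihedralSRing
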