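import Mathlib
import Cfsg.Agent.H28.DihedralSRing.Vanish
import Cfsg.Agent.H28.DihedralSRing.Counting
import Cfsg.Agent.H28.DihedralSRing.Negacyclic

/-!
# Primitive S-rings over dihedral groups have rank two
-/

set_option autoImplicit false

namespace Cfsg.Agent.H28.DihedralSRing

open MonoidAlgebra

open scoped Classical

variable {m : ℕ} [NeZero m] {S : Scheme m}

theorem exists_fibre_prime (hrat : S.IsRational) (hm : 2 ≤ m) :
    ∃ p : ℕ, p.Prime ∧ p ∣ m ∧ (p ≠ 2 ∨ ∃ j, m = 2 ^ (j + 1)) ∧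
      ∀ i j : ZMod m, p • i = p • j → p • i ≠ 0 → S.rel (.r i) (.r j) := by
  by_cases h : ∃ p : ℕ, p.Prime ∧ p ∣ m ∧ p ≠ 2
  · obtain ⟨p, hp, hpm, hp2⟩ := h
    haveI := Fact.mk hp
    exact ⟨p, hp, hpm, Or.inl hp2, fun i j h1 h2 => rel_of_nsmul_eq hrat hp2 hpm h1 h2⟩
  · push Not at h
    have hpow : ∃ k, m = 2 ^ k := ⟨m.primeFactorsList.length,
      Nat.eq_prime_pow_of_unique_prime_dvd (by omega) fun {d} hd hdm => h d hd hdm⟩
    obtain ⟨k, hk⟩ := hpow
    obtain ⟨j, rfl⟩ : ∃ j, k = j + 1 := ⟨k - 1, by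
      rcases Nat.eq_zero_or_pos k with rfl | h0
      · simp at hk; omega
      · omega⟩
    haveI := Fact.mk Nat.prime_two
    refine ⟨2, Nat.prime_two, hk ▸ dvd_pow_self 2 (Nat.succ_ne_zero j), Or.inr ⟨j, hk⟩,
      fun a b h1 h2 => ?_⟩
    have key : ∀ c : ZMod m, c ≠ 0 → ¬ PPrime 2 c := by
      intro c hc hK
      have hd : addOrderOf c ∣ 2 ^ (j + 1) :=
        hk ▸ addOrderOf_dvd_card.trans (dvd_of_eq (ZMod.card m))
      obtain ⟨a, -, ha⟩ := (Nat.dvd_prime_pow Nat.prime_two).1 hd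
      rcases Nat.eq_zero_or_pos a with rfl | h0
      · exact hc (AddMonoid.addOrderOf_eq_one_iff.1 ha)
      · exact hK (ha ▸ dvd_pow_self 2 h0.ne')
    exact hrat _ _ (addOrderOf_eq_of_not_pPrime (key a fun h0 => h2 (by rw [h0, smul_zero]))
      (key b fun h0 => h2 (by rw [h1, h0, smul_zero])) h1)

/-- A rational scheme has rank two. -/
theorem rel_of_rational (hrat : S.IsRational) (hm : 2 ≤ m) {x y : DihedralGroup m} (hx : x ≠ 1)
    (hy : y ≠ 1) : S.rel x y := by
  obtain ⟨p, hp, hpm, hcase, hfib⟩ := exists_fibre_prime hrat hm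
  haveI := Fact.mk hp
  let H : AddSubgroup (ZMod m) := (nsmulAddMonoidHom p).ker
  have hH : ∀ a, a ∈ H ↔ p • a = 0 := fun a => by
    simp [H, AddMonoidHom.mem_ker, nsmulAddMonoidHom]
  have hord : ∀ {a}, a ∈ H → a ≠ 0 → addOrderOf a = p := fun {a} ha h0 =>
    ((Nat.dvd_prime hp).1 (addOrderOf_dvd_of_nsmul_eq_zero ((hH a).1 ha))).resolve_left
      fun h1 => h0 (AddMonoid.addOrderOf_eq_one_iff.1 h1)
  set c : ZMod m := ((m / p : ℕ) : ZMod m) with hc
  have hcord : addOrderOf c = p := by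
    rw [hc, ZMod.addOrderOf_coe _ (NeZero.ne m), Nat.gcd_eq_right (Nat.div_dvd_of_dvd hpm),
      Nat.div_div_self hpm (NeZero.ne m)]
  have hcH : c ∈ H := (hH c).2 (hcord ▸ addOrderOf_nsmul_eq_zero c)
  have hc0 : c ≠ 0 := fun h => hp.ne_one (by rw [← hcord, h, addOrderOf_zero])
  suffices main : ∀ a : DihedralGroup m, a ≠ 1 → S.rel (.r c) a from
    S.equiv.trans (S.equiv.symm (main x hx)) (main y hy)
  intro a ha
  by_contra hrel
  set f := S.ind ℤ a with hf
  have hfm : f ∈ S.alg ℤ := S.ind_mem _ _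
  have hff := (S.alg ℤ).mul_mem hfm hfm
  let X : ZMod m → ℤ := fun i => f.coeff (.r i)
  let Y : ZMod m → ℤ := fun i => f.coeff (.sr i)
  have hXH : ∀ i ∈ H, X i = 0 := by
    intro i hi
    simp only [X, hf, S.coeff_ind]
    rw [if_neg]
    intro h
    rcases eq_or_ne i 0 with rfl | h0
    · rw [DihedralGroup.r_zero] at h
      exact ha (S.one_left _ (S.equiv.symm h))
    · exact hrel (S.equiv.trans (hrat _ _ (hcord.trans (hord hi h0).symm)) (S.equiv.symm h))
  have hXinv : ∀ i, ∀ h ∈ H, X (i + h) = X i := by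
    intro i h hh
    by_cases hi : i ∈ H
    · rw [hXH _ hi, hXH _ (H.add_mem hi hh)]
    · exact (hfm _ _ (hfib i (i + h) (by rw [nsmul_add, (hH h).1 hh, add_zero])
        fun h0 => hi ((hH i).2 h0))).symm
  -- the square
  set N : ℤ := (f * f).coeff 1 - (f * f).coeff (.r c) with hN
  let F := f * f - N • (1 : MonoidAlgebra ℤ (DihedralGroup m))
  have hFm : F ∈ S.alg ℤ := (S.alg ℤ).sub_mem hff ((S.alg ℤ).zsmul_mem (S.alg ℤ).one_mem N)
  have hF : ∀ z : DihedralGroup m, F.coeff z = (f * f).coeff z - if z = 1 then N else 0 := by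
    intro z
    simp only [F, coeff_sub, Finsupp.sub_apply, coeff_smul, Finsupp.smul_apply,
      MonoidAlgebra.one_def, coeff_single, Finsupp.single_apply, smul_eq_mul, mul_ite, mul_one,
      mul_zero, eq_comm (a := (1 : DihedralGroup m))]
  have hsr : ∀ b : ZMod m, (f * f).coeff (.sr b) = 2 * ∑ i, Y i * X (b - i) := by
    intro b
    rw [coeff_mul_sr, two_mul]
    congr 1
    refine Fintype.sum_equiv (Equiv.addLeft b) _ _ fun i => ?_
    simp only [X, Y, Equiv.coe_addLeft, sub_add_cancel_left, Scheme.coeff_r_neg hfm, mul_comm]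
  have hFr : ∀ i ∈ H, F.coeff (.r i) = (f * f).coeff (.r c) := by
    intro i hi
    rcases eq_or_ne i 0 with rfl | h0
    · rw [hF, DihedralGroup.r_zero, if_pos rfl, hN]; ring
    · rw [hF, if_neg (fun h => h0 (DihedralGroup.r.inj (h.trans DihedralGroup.one_def))), sub_zero]
      exact hff _ _ (hrat _ _ ((hord hi h0).trans hcord.symm))
  have hper : ∀ z, F.coeff (.r c * z) = F.coeff z := by
    intro z
    rcases z with i | i
    · rw [DihedralGroup.r_mul_r]
      by_cases hi : i ∈ H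
      · rw [hFr _ hi, hFr _ (H.add_mem hcH hi)]
      · exact (hFm _ _ (hfib i (c + i) (by rw [nsmul_add, (hH c).1 hcH, zero_add])
          fun h0 => hi ((hH i).2 h0))).symm
    · rw [DihedralGroup.r_mul_sr, hF, hF, if_neg (fun h => nomatch h.trans DihedralGroup.one_def),
        if_neg (fun h => nomatch h.trans DihedralGroup.one_def), sub_zero, sub_zero, hsr, hsr]
      congr 1
      refine Finset.sum_congr rfl fun j _ => ?_
      rw [show i - c - j = i - j + -c by ring, hXinv _ _ (H.neg_mem hcH)]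
  have hconst := fun z => Scheme.const_of_period hFm
    (c := DihedralGroup.r c) (fun h => hc0 (DihedralGroup.r.inj (h.trans DihedralGroup.one_def)))
    hper z
  set μ := F.coeff 1 with hμ
  have hE1 : ∀ b, ∑ i, X i * X (b - i) + ∑ i, Y i * Y (i + b) = μ + if b = 0 then N else 0 := by
    intro b
    have h := hconst (.r b)
    rw [hF, coeff_mul_r] at h
    have hiff : DihedralGroup.r b = 1 ↔ b = 0 := by rw [DihedralGroup.one_def, DihedralGroup.r.injEq]
    simp only [hiff] at h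
    linarith
  have hE2 : ∀ b, 2 * ∑ i, Y i * X (b - i) = μ := by
    intro b
    have h := hconst (.sr b)
    rw [hF, if_neg (fun h => nomatch h.trans DihedralGroup.one_def), sub_zero, hsr] at h
    exact h
  have h01 : ∀ z, f.coeff z = 0 ∨ f.coeff z = 1 := fun z => by
    rw [hf, S.coeff_ind]; split_ifs <;> simp
  obtain ⟨a0, ha0⟩ := S.meet a
  have hX0 : X a0 = 1 := by simp [X, hf, S.coeff_ind, ha0]
  obtain ⟨hN0, hdvd, hle⟩ := counting H (X := X) (Y := Y) (fun i => h01 _) (fun i => h01 _)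
    (hXH 0 H.zero_mem) (fun i => Scheme.coeff_r_neg hfm i) hXinv hX0 (N := N) (μ := μ) (fun b => by convert hE1 b) hE2
  have hcard : p ∣ Fintype.card H := by
    have h := addOrderOf_dvd_card (x := (⟨c, hcH⟩ : H))
    rwa [← AddSubgroup.addOrderOf_coe, hcord] at h
  have hple : p ≤ Fintype.card H := Nat.le_of_dvd Fintype.card_pos hcard
  rcases hcase with hp2 | ⟨j, hj⟩
  · have := hp.two_le; omega
  · have hp2 : p = 2 := by
      have := hp.two_le; omega
    have hH2 : Fintype.card H = 2 := by omega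
    have hhH : ((2 ^ j : ℕ) : ZMod m) ∈ H := by
      rw [hH, hp2, nsmul_eq_mul, ← Nat.cast_mul, ← pow_succ', ← hj, ZMod.natCast_self]
    refine negacyclic (Y := Y) (Z := fun b => μ - ∑ i, X i * X (b - i)) hj rfl (fun i => h01 _)
      (fun b => ?_) hN0 (by rw [hH2] at hdvd; exact hdvd) fun b => ?_
    · congr 1
      refine Finset.sum_congr rfl fun i _ => ?_
      rw [add_sub_right_comm, hXinv _ _ hhH]
    · have := hE1 b
      linarith

/-- A primitive S-ring over a dihedral group has rank two. -/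
theorem rel_of_primitive (S : Scheme m) (hm : 2 ≤ m) {x y : DihedralGroup m} (hx : x ≠ 1)
    (hy : y ≠ 1) : S.rel x y :=
  S.rel_of_fusion (fun _ _ h1 h2 => rel_of_rational S.fusion_isRational hm h1 h2) hx hy

end Cfsg.Agent.H28.DihedralSRing
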