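import Mathlib
import Cfsg.Agent.H28.DihedralSRing.RankTwo

/-!
# Primitive groups with a regular dihedral subgroup
-/

set_option autoImplicit false

namespace Cfsg.Agent.H28.DihedralSRing

open scoped Classical Pointwise

section Abstract

variable {m : ℕ} [NeZero m] {G Ω : Type*} [Group G] [MulAction G Ω]

/-- The regular identification. -/
def pt (θ : DihedralGroup m →* G) (o : Ω) (x : DihedralGroup m) : Ω := θ x • o

variable {θ : DihedralGroup m →* G} {o : Ω}

/-- Conjugacy under a point stabilizer. -/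
def srel (θ : DihedralGroup m →* G) (o : Ω) (x y : DihedralGroup m) : Prop :=
  ∃ g ∈ MulAction.stabilizer G o, g • pt θ o x = pt θ o y

theorem srel_equiv : Equivalence (srel θ o) where
  refl x := ⟨1, Subgroup.one_mem _, one_smul _ _⟩
  symm := fun ⟨g, hg, h⟩ => ⟨g⁻¹, Subgroup.inv_mem _ hg, by rw [← h, inv_smul_smul]⟩
  trans := fun ⟨g, hg, h⟩ ⟨k, hk, h'⟩ =>
    ⟨k * g, Subgroup.mul_mem _ hk hg, by rw [mul_smul, h, h']⟩

theorem smul_pt (d x : DihedralGroup m) : θ d • pt θ o x = pt θ o (d * x) := by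
  rw [pt, pt, map_mul, mul_smul]

theorem pt_one : pt θ o 1 = o := by rw [pt, map_one, one_smul]

variable (hbij : Function.Bijective (pt θ o))

include hbij

theorem srel_one {x : DihedralGroup m} (h : srel θ o 1 x) : x = 1 := by
  obtain ⟨g, hg, h⟩ := h
  rw [pt_one, MulAction.mem_stabilizer_iff.1 hg] at h
  exact (hbij.1 (h.symm.trans pt_one.symm))

theorem srel_mul {a b y : DihedralGroup m} (h : srel θ o (a * b) y) :
    ∃ a' b', srel θ o a a' ∧ srel θ o b b' ∧ y = a' * b' := by
  obtain ⟨g, hg, h⟩ := h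
  obtain ⟨a', ha'⟩ := hbij.2 (g • pt θ o a)
  refine ⟨a', a'⁻¹ * y, ⟨g, hg, ha'.symm⟩, ⟨θ a'⁻¹ * g * θ a, ?_, ?_⟩,
    (mul_inv_cancel_left _ _).symm⟩
  · rw [MulAction.mem_stabilizer_iff, mul_smul, mul_smul, show θ a • o = pt θ o a from rfl, ← ha', smul_pt, inv_mul_cancel,
      pt_one]
  · rw [mul_smul, mul_smul, smul_pt, h, smul_pt]

theorem srel_inv {x y : DihedralGroup m} (h : srel θ o x y) : srel θ o x⁻¹ y⁻¹ := by
  obtain ⟨g, hg, h⟩ := h
  refine ⟨θ y⁻¹ * g * θ x, ?_, ?_⟩
  · rw [MulAction.mem_stabilizer_iff, mul_smul, mul_smul, show θ x • o = pt θ o x from rfl, h, smul_pt, inv_mul_cancel, pt_one]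
  · rw [mul_smul, mul_smul, smul_pt, mul_inv_cancel, pt_one, MulAction.mem_stabilizer_iff.1 hg, pt]

/-- An invariant set generates an invariant subgroup. -/
theorem closure_invariant [Finite G] {U : Set (DihedralGroup m)}
    (hU : ∀ x y, srel θ o x y → x ∈ U → y ∈ U) {x y : DihedralGroup m} (h : srel θ o x y)
    (hx : x ∈ Subgroup.closure U) : y ∈ Subgroup.closure U := by
  induction hx using Subgroup.closure_induction generalizing y with
  | mem x hx => exact Subgroup.subset_closure (hU x y h hx)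
  | one => rw [srel_one hbij h]; exact Subgroup.one_mem _
  | mul a b _ _ ha hb =>
    obtain ⟨a', b', h1, h2, rfl⟩ := srel_mul hbij h
    exact Subgroup.mul_mem _ (ha h1) (hb h2)
  | inv a _ ha =>
    have := ha (by simpa using srel_inv hbij h : srel θ o a y⁻¹)
    simpa using Subgroup.inv_mem _ this

theorem srel_prim [Finite G] (hprim : MulAction.IsPreprimitive G Ω)
    (H : Subgroup (DihedralGroup m)) (hH : ∀ x y, srel θ o x y → x ∈ H → y ∈ H) :
    H = ⊥ ∨ H = ⊤ := by
  haveI := hprim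
  have hnt : Nontrivial Ω := by
    refine ⟨pt θ o 1, pt θ o (.sr 0), fun h => ?_⟩
    exact nomatch (hbij.1 h).symm.trans DihedralGroup.one_def
  have hbl : MulAction.IsBlock G (pt θ o '' (H : Set (DihedralGroup m))) := by
    rw [MulAction.isBlock_iff_smul_eq_of_nonempty]
    rintro g ⟨-, ⟨⟨-, ⟨d, hd, rfl⟩, rfl⟩, ⟨d', hd', he⟩⟩⟩
    replace he : g • pt θ o d = pt θ o d' := he.symm
    -- `g` lies in `θ d' · stabilizer · θ d⁻¹`
    have hk : θ d'⁻¹ * g * θ d ∈ MulAction.stabilizer G o := by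
      rw [MulAction.mem_stabilizer_iff, mul_smul, mul_smul, show θ d • o = pt θ o d from rfl, he, smul_pt, inv_mul_cancel,
        pt_one]
    have hsub : g • (pt θ o '' (H : Set (DihedralGroup m))) ⊆
        pt θ o '' (H : Set (DihedralGroup m)) := by
      rintro - ⟨-, ⟨e, he', rfl⟩, rfl⟩
      obtain ⟨e', he''⟩ := hbij.2 ((θ d'⁻¹ * g * θ d) • pt θ o (d⁻¹ * e))
      have h1 : e' ∈ H := hH _ _ ⟨_, hk, he''.symm⟩ (H.mul_mem (H.inv_mem hd) he')
      refine ⟨d' * e', H.mul_mem hd' h1, ?_⟩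
      rw [← smul_pt, he'', mul_smul, mul_smul, smul_pt d, mul_inv_cancel_left, smul_smul,
        ← map_mul, mul_inv_cancel, map_one, one_smul]
    haveI : Finite Ω := Finite.of_surjective _ hbij.2
    exact Set.eq_of_subset_of_ncard_le hsub (by rw [Set.ncard_smul_set]) (Set.toFinite _)
  rcases hprim.isTrivialBlock_of_isBlock hbl with h | h
  · refine Or.inl ((Subgroup.eq_bot_iff_forall H).2 fun x hx => hbij.1 ?_)
    exact h ⟨x, hx, rfl⟩ ⟨1, H.one_mem, rfl⟩
  · refine Or.inr (Subgroup.eq_top_iff' H |>.2 fun x => ?_)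
    obtain ⟨z, hz, hz'⟩ := (h ▸ Set.mem_univ (pt θ o x) : pt θ o x ∈ pt θ o '' (H : Set _))
    exact hbij.1 hz' ▸ hz

variable (m) in
/-- The rotations. -/
theorem rotations_ne_top : (rot m).range ≠ ⊤ := fun h => by
  obtain ⟨i, hi⟩ := (h ▸ Subgroup.mem_top (DihedralGroup.sr (0 : ZMod m)) :
    DihedralGroup.sr (0 : ZMod m) ∈ (rot m).range)
  exact nomatch (hi : DihedralGroup.r i.toAdd = DihedralGroup.sr 0)

theorem srel_self_inv [Finite G] (hprim : MulAction.IsPreprimitive G Ω) (x : DihedralGroup m) :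
    srel θ o x x⁻¹ := by
  by_cases h : ∃ i, srel θ o x (.sr i)
  · obtain ⟨i, hi⟩ := h
    exact srel_equiv.trans hi (srel_equiv.symm (by simpa using srel_inv hbij hi))
  · push Not at h
    let U : Set (DihedralGroup m) := {y | srel θ o x y}
    have hle : Subgroup.closure U ≤ (rot m).range := (Subgroup.closure_le _).2 fun y hy => by
      rcases y with i | i
      · exact ⟨Multiplicative.ofAdd i, rfl⟩
      · exact absurd hy (h i)
    rcases srel_prim hbij hprim _ (fun a b hab ha => closure_invariant hbij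
      (fun c d hcd hc => srel_equiv.trans (show srel θ o x c from hc) hcd) hab ha) with h1 | h1
    · have hx : x ∈ Subgroup.closure U := Subgroup.subset_closure (srel_equiv.refl x)
      replace hx : x = 1 := Subgroup.mem_bot.1 (show x ∈ (⊥ : Subgroup (DihedralGroup m)) from h1.le hx)
      rw [hx, inv_one]; exact srel_equiv.refl 1
    · exact absurd (top_le_iff.1 (h1 ▸ hle)) (rotations_ne_top m hbij)

theorem srel_meet [Finite G] (hprim : MulAction.IsPreprimitive G Ω) (hm : 2 ≤ m)
    (x : DihedralGroup m) : ∃ i : ZMod m, srel θ o x (.r i) := by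
  by_contra h
  push Not at h
  let U : Set (DihedralGroup m) := {z | ∃ a b, srel θ o x a ∧ srel θ o x b ∧ z = a * b}
  have hU : ∀ c d, srel θ o c d → c ∈ U → d ∈ U := by
    rintro c d hcd ⟨a, b, ha, hb, rfl⟩
    obtain ⟨a', b', h1, h2, rfl⟩ := srel_mul hbij hcd
    exact ⟨a', b', srel_equiv.trans ha h1, srel_equiv.trans hb h2, rfl⟩
  have hrefl : ∀ {a}, srel θ o x a → ∃ i, a = DihedralGroup.sr i := fun {a} ha => by
    rcases a with i | i
    · exact absurd ha (h i)
    · exact ⟨i, rfl⟩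
  have hle : Subgroup.closure U ≤ (rot m).range := (Subgroup.closure_le _).2 fun z hz => by
    obtain ⟨a, b, ha, hb, rfl⟩ := hz
    obtain ⟨i, rfl⟩ := hrefl ha
    obtain ⟨j, rfl⟩ := hrefl hb
    exact ⟨Multiplicative.ofAdd (j - i), rfl⟩
  rcases srel_prim hbij hprim _ (fun a b hab ha => closure_invariant hbij hU hab ha) with h1 | h1
  · have hsingle : ∀ a, srel θ o x a → a = x⁻¹ := fun a ha => by
      have hxa : x * a ∈ Subgroup.closure U :=
        Subgroup.subset_closure ⟨x, a, srel_equiv.refl x, ha, rfl⟩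
      replace hxa : x * a = 1 := Subgroup.mem_bot.1 (show x * a ∈ (⊥ : Subgroup (DihedralGroup m)) from h1.le hxa)
      exact eq_inv_of_mul_eq_one_right hxa
    have hxx : ∀ a, srel θ o x a → a = x := fun a ha => by
      rw [hsingle a ha, ← hsingle x (srel_equiv.refl x)]
    rcases srel_prim hbij hprim _ (fun a b hab ha => closure_invariant hbij
      (U := {x}) (fun c d hcd (hc : c = x) => hxx d (hc ▸ hcd)) hab ha) with h2 | h2
    · have := (Subgroup.closure_eq_bot_iff.1 h2) (Set.mem_singleton x)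
      rw [Set.mem_singleton_iff] at this
      exact h 0 (this ▸ DihedralGroup.r_zero (n := m) ▸ srel_equiv.refl _)
    · rw [← Subgroup.zpowers_eq_closure] at h2
      obtain ⟨i, hi⟩ := hrefl (srel_equiv.refl x)
      have h3 := Nat.card_zpowers x
      rw [h2, Subgroup.card_top, DihedralGroup.nat_card, hi, DihedralGroup.orderOf_sr] at h3
      omega
  · exact absurd (top_le_iff.1 (h1 ▸ hle)) (rotations_ne_top m hbij)

theorem srel_count [Finite G] (a b x y : DihedralGroup m) (h : srel θ o x y) :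
    (Finset.univ.filter fun u => srel θ o a u ∧ srel θ o b (u⁻¹ * x)).card =
      (Finset.univ.filter fun u => srel θ o a u ∧ srel θ o b (u⁻¹ * y)).card := by
  obtain ⟨g, hg, hxy⟩ := h
  let e := Equiv.ofBijective _ hbij
  let τ : DihedralGroup m ≃ DihedralGroup m := e.trans ((MulAction.toPerm g).trans e.symm)
  have hτ : ∀ u, pt θ o (τ u) = g • pt θ o u := fun u => by
    change e (e.symm (MulAction.toPerm g (e u))) = _
    rw [Equiv.apply_symm_apply]; rfl
  have hedge : ∀ u z, srel θ o b (u⁻¹ * z) ↔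
      ∃ k : G, k • o = pt θ o u ∧ k • pt θ o b = pt θ o z := by
    intro u z
    constructor
    · rintro ⟨k, hk, h⟩
      refine ⟨θ u * k, ?_, ?_⟩
      · rw [mul_smul, MulAction.mem_stabilizer_iff.1 hk]; rfl
      · rw [mul_smul, h, smul_pt, mul_inv_cancel_left]
    · rintro ⟨k, hk, h⟩
      refine ⟨θ u⁻¹ * k, ?_, ?_⟩
      · rw [MulAction.mem_stabilizer_iff, mul_smul, hk, smul_pt, inv_mul_cancel, pt_one]
      · rw [mul_smul, h, smul_pt]
  refine Finset.card_equiv τ fun u => ?_
  simp only [Finset.mem_filter, Finset.mem_univ, true_and, hedge]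
  refine and_congr ?_ ?_
  · have h1 : srel θ o u (τ u) := ⟨g, hg, (hτ u).symm⟩
    exact ⟨fun h2 => srel_equiv.trans h2 h1, fun h2 => srel_equiv.trans h2 (srel_equiv.symm h1)⟩
  · constructor
    · rintro ⟨k, hk1, hk2⟩
      exact ⟨g * k, by rw [mul_smul, hk1, hτ], by rw [mul_smul, hk2, hxy]⟩
    · rintro ⟨k, hk1, hk2⟩
      exact ⟨g⁻¹ * k, by rw [mul_smul, hk1, hτ, inv_smul_smul],
        by rw [mul_smul, hk2, ← hxy, inv_smul_smul]⟩

/-- The transitivity module. -/
noncomputable def ofGroup [Finite G] (hprim : MulAction.IsPreprimitive G Ω) (hm : 2 ≤ m) :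
    Scheme m where
  rel := srel θ o
  equiv := srel_equiv
  one_left _ h := srel_one hbij h
  inv x := srel_self_inv hbij hprim x
  count a b x y h := srel_count hbij a b x y h
  meet x := srel_meet hbij hprim hm x
  prim H hH := srel_prim hbij hprim H hH

end Abstract

end Cfsg.Agent.H28.DihedralSRing
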